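import Mathlib
import Cfsg.Prelude.Def_Characters
import Cfsg.Agent.Lib.Helper25.FieldVal1
import Cfsg.Agent.Lib.Helper12.GaloisTwist
import Cfsg.Agent.Lib.Helper2.GoingDown

set_option autoImplicit false

namespace Cfsg.Agent.Lib.Helper25

open Cfsg Cfsg.Agent.Lib.Helper2 Cfsg.Agent.Lib.Helper12
open ComplexConjugate

/-- lift of a character to the cyclotomic field -/
theorem fv_lift (n : ℕ) [NeZero n] {X : Type*} [Group X] [Finite X] (hX : Nat.card X ∣ n)
    {χ : X → ℂ} (hχ : IsCharacter X χ) :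
    ∃ x : X → CycK n, (∀ g, cycEmb n (x g) = χ g) ∧
      ∀ (σ : CycK n ≃ₐ[ℚ] CycK n) (m : ℕ), σ (cycZeta n) = cycZeta n ^ m →
        ∀ g, cycEmb n (σ (x g)) = χ (g ^ m) := by
  obtain ⟨d, ρ, rfl⟩ := hχ
  have h := fun g : X => char_lift_self n ρ g ((orderOf_dvd_natCard g).trans hX)
  choose x hx1 hx2 using h
  exact ⟨x, hx1, fun σ m hσ g => hx2 g σ m hσ⟩

/-- the Galois step: passing from a character vanishing off a normal subgroup of index `p`
to a constituent of its restriction multiplies the degree of the field of values by `1` or `p` -/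
theorem fv_step {P : Type*} [Group P] [Fintype P] (p : ℕ) [hp : Fact p.Prime] (a t : ℕ)
    (ha : 1 ≤ a) (hP : Nat.card P = p ^ a) (H : Subgroup P) [hH : H.Normal] [Fintype H]
    {χ : P → ℂ} (hχ : IsIrrCharacter P χ) (hvan : ∀ g : P, g ∉ H → χ g = 0)
    {θ : H → ℂ} (hθ : IsIrrCharacter H θ) (F : Finset (H → ℂ)) (hθF : θ ∈ F)
    (hFconj : ∀ ψ ∈ F, ∃ k : P, ψ = Cfsg.Agent.Lib.Helper2.conjFun H θ k)
    (hFcard : F.card = p) (hsum : (fun h : H => χ h) = ∑ ψ ∈ F, ψ)
    (hfield : Module.finrank ℚ (IntermediateField.adjoin ℚ (Set.range χ)) = (p - 1) * p ^ t) :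
    ∃ t' : ℕ, Module.finrank ℚ (IntermediateField.adjoin ℚ (Set.range θ)) = (p - 1) * p ^ t' ∧
      (t' = t ∨ (t' = t + 1 ∧
        ∀ ψ ∈ F, ∃ m : ℕ, m.Coprime (Nat.card P) ∧ ∀ h : H, ψ h = θ (h ^ m))) := by
  classical
  have hn : NeZero (Nat.card P) := ⟨Nat.card_pos.ne'⟩
  obtain ⟨x, hx1, hx2⟩ := fv_lift (Nat.card P) dvd_rfl (isCharacter_of_isIrrCharacter hχ)
  obtain ⟨y, hy1, hy2⟩ := fv_lift (Nat.card P) (Subgroup.card_subgroup_dvd_card H)
    (isCharacter_of_isIrrCharacter hθ)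
  have E1 := fv_finrank (Nat.card P) x
  have E2 := fv_finrank (Nat.card P) y
  have r1 : (fun i => cycEmb (Nat.card P) (x i)) = χ := funext hx1
  have r2 : (fun i => cycEmb (Nat.card P) (y i)) = θ := funext hy1
  rw [r1] at E1
  rw [r2] at E2
  rw [hfield] at E1
  have htot : Nat.totient (Nat.card P) = p ^ (a - 1) * (p - 1) := by
    rw [hP]
    exact Nat.totient_prime_pow hp.out (by omega)
  have hFirr : ∀ ψ ∈ F, IsIrrCharacter H ψ := by
    intro ψ hψ
    obtain ⟨k, rfl⟩ := hFconj ψ hψ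
    exact conjFun_irr H hθ k
  have e1 : ∀ h : H, χ (h : P) = ∑ ψ ∈ F, ψ h := by
    intro h
    have := congrFun hsum h
    rw [Finset.sum_apply] at this
    exact this
  -- Claim 1
  have hle : fvStab (Nat.card P) y ≤ fvStab (Nat.card P) x := by
    intro σ hσ g
    obtain ⟨m, hm, hσm⟩ := aut_zeta (Nat.card P) σ
    apply cycEmb_injective
    rw [hx2 σ m hσm g, hx1]
    have hθm : ∀ h : H, θ (h ^ m) = θ h := by
      intro h
      rw [← hy2 σ m hσm h, hσ h, hy1]
    by_cases hg : g ∈ H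
    · have e2 := e1 ⟨g, hg⟩
      have e3 := e1 (⟨g, hg⟩ ^ m)
      rw [Subgroup.coe_pow] at e3
      change χ (g ^ m) = _ at e3
      change χ g = _ at e2
      rw [e3, e2]
      apply Finset.sum_congr rfl
      intro ψ hψ
      obtain ⟨k, rfl⟩ := hFconj ψ hψ
      rw [conjFun_apply, conjFun_apply]
      have hk : (⟨k * (((⟨g, hg⟩ : H) ^ m : H) : P) * k⁻¹,
            hH.conj_mem _ ((⟨g, hg⟩ : H) ^ m : H).2 k⟩ : H)
          = (⟨k * g * k⁻¹, hH.conj_mem g hg k⟩ : H) ^ m := by
        apply Subtype.ext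
        simp [conj_pow]
      rw [hk, hθm]
    · have hgm : g ^ m ∉ H := by
        intro hmem
        apply hg
        obtain ⟨m', hm'⟩ := exists_pow_eq_self_of_coprime
          (hm.coprime_dvd_right (orderOf_dvd_natCard g))
        rw [← hm']
        exact pow_mem hmem m'
      rw [hvan g hg, hvan _ hgm]
  -- Claim 4
  have hmemF : ∀ σ ∈ fvStab (Nat.card P) x,
      (fun h : H => cycEmb (Nat.card P) (σ (y h))) ∈ F ∧
      ∃ m : ℕ, m.Coprime (Nat.card P) ∧ ∀ h : H, cycEmb (Nat.card P) (σ (y h)) = θ (h ^ m) := by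
    intro σ hσ
    obtain ⟨m, hm, hσm⟩ := aut_zeta (Nat.card P) σ
    have hfun : (fun h : H => cycEmb (Nat.card P) (σ (y h))) = fun h => θ (h ^ m) :=
      funext (fun h => hy2 σ m hσm h)
    refine ⟨?_, m, hm, fun h => hy2 σ m hσm h⟩
    rw [hfun]
    have hmH : m.Coprime (Nat.card H) :=
      hm.coprime_dvd_right (Subgroup.card_subgroup_dvd_card H)
    have hirr := isIrrCharacter_pow_coprime m hmH hθ
    by_contra hnot
    have hχm : ∀ g : P, χ (g ^ m) = χ g := by
      intro g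
      rw [← hx2 σ m hσm g, hσ g, hx1]
    have h0 : classInner (fun h : H => χ h) (fun h => θ (h ^ m)) = 0 := by
      rw [hsum, classInner_sum_left]
      apply Finset.sum_eq_zero
      intro ψ hψ
      apply classInner_irr_ne (hFirr ψ hψ) hirr
      rintro rfl
      exact hnot hψ
    have h1 : classInner (fun h : H => χ h) (fun h => θ (h ^ m))
        = classInner (fun h : H => χ h) θ := by
      rw [classInner_def, classInner_def]
      congr 1
      apply Fintype.sum_bijective _ (powCoprime hmH.symm).bijective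
      intro h
      have : χ (((powCoprime hmH.symm) h : H) : P) = χ (h : P) := by
        change χ (((h ^ m : H)) : P) = χ (h : P)
        rw [Subgroup.coe_pow, hχm]
      rw [this]
      rfl
    have h2 : classInner (fun h : H => χ h) θ = 1 := by
      rw [hsum, classInner_sum_left, Finset.sum_eq_single θ]
      · exact classInner_irr_self hθ
      · intro ψ hψ hne
        exact classInner_irr_ne (hFirr ψ hψ) hθ hne
      · intro h
        exact absurd hθF h
    rw [h1, h2] at h0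
    exact one_ne_zero h0
  obtain ⟨Sx, hSx⟩ : ∃ S, S = fvStab (Nat.card P) x := ⟨_, rfl⟩
  obtain ⟨Sy, hSy⟩ : ∃ S, S = fvStab (Nat.card P) y := ⟨_, rfl⟩
  rw [← hSx] at E1 hmemF
  rw [← hSy] at E2
  rw [← hSx, ← hSy] at hle
  have hrel : Sy.relIndex Sx * Nat.card Sy = Nat.card Sx := by
    have h1 := (Sy.subgroupOf Sx).card_mul_index
    rw [Nat.card_congr (Subgroup.subgroupOfEquivOfLe hle).toEquiv] at h1
    rw [mul_comm]
    exact h1
  have hmemSy : ∀ τ : CycK (Nat.card P) ≃ₐ[ℚ] CycK (Nat.card P),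
      τ ∈ Sy ↔ ∀ h, τ (y h) = y h := by
    intro τ
    rw [hSy]
    exact Iff.rfl
  have hrel_le : Sy.relIndex Sx ≤ p ∧ (Sy.relIndex Sx = p →
      ∀ ψ ∈ F, ∃ m : ℕ, m.Coprime (Nat.card P) ∧ ∀ h : H, ψ h = θ (h ^ m)) := by
    let f : Sx → F := fun σ =>
      ⟨fun h : H => cycEmb (Nat.card P) ((σ : CycK (Nat.card P) ≃ₐ[ℚ] CycK (Nat.card P)) (y h)),
        (hmemF σ.1 σ.2).1⟩
    let g : (Sx ⧸ Sy.subgroupOf Sx) → F := fun q => f (Quotient.out q)
    have hg : Function.Injective g := by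
      intro q q' hqq
      have h1 : ∀ h : H,
          ((Quotient.out q : Sx) : CycK (Nat.card P) ≃ₐ[ℚ] CycK (Nat.card P)) (y h)
            = ((Quotient.out q' : Sx) : CycK (Nat.card P) ≃ₐ[ℚ] CycK (Nat.card P)) (y h) := by
        intro h
        have := congrFun (congrArg Subtype.val hqq) h
        exact cycEmb_injective _ this
      have h2 : (Quotient.out q)⁻¹ * Quotient.out q' ∈ Sy.subgroupOf Sx := by
        rw [Subgroup.mem_subgroupOf, hmemSy]
        intro h
        simp only [Subgroup.coe_mul, Subgroup.coe_inv, AlgEquiv.mul_apply]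
        rw [← h1 h]
        exact ((Quotient.out q : Sx) : CycK (Nat.card P) ≃ₐ[ℚ] CycK (Nat.card P)).symm_apply_apply
          (y h)
      have h3 := QuotientGroup.eq.mpr h2
      rw [QuotientGroup.out_eq', QuotientGroup.out_eq'] at h3
      exact h3
    have hcard : Nat.card (Sx ⧸ Sy.subgroupOf Sx) = Sy.relIndex Sx := rfl
    have hFc : Nat.card F = p := by
      rw [Nat.card_eq_fintype_card, Fintype.card_coe, hFcard]
    constructor
    · rw [← hcard, ← hFc]
      exact Nat.card_le_card_of_injective g hg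
    · intro heq ψ hψ
      have hbij : Function.Bijective g :=
        (Nat.bijective_iff_injective_and_card g).mpr ⟨hg, by rw [hcard, heq, hFc]⟩
      obtain ⟨q, hq⟩ := hbij.2 ⟨ψ, hψ⟩
      obtain ⟨-, m, hm, hm2⟩ := hmemF (Quotient.out q).1 (Quotient.out q).2
      refine ⟨m, hm, fun h => ?_⟩
      rw [← hm2 h]
      have := congrFun (congrArg Subtype.val hq) h
      exact this.symm
  -- arithmetic
  have hp1 : 0 < p - 1 := by have := hp.out.two_le; omega
  have hSy_pos : 0 < Nat.card Sy := Nat.card_pos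
  have hE1' : p ^ t * Nat.card Sx = p ^ (a - 1) := by
    have : (p - 1) * (p ^ t * Nat.card Sx) = (p - 1) * p ^ (a - 1) := by
      rw [← mul_assoc, E1, htot, mul_comm]
    exact Nat.eq_of_mul_eq_mul_left hp1 this
  have hSx_dvd : Nat.card Sx ∣ p ^ (a - 1) := ⟨p ^ t, by rw [← hE1', mul_comm]⟩
  have hr_dvd : Sy.relIndex Sx ∣ p ^ (a - 1) := (Dvd.intro _ hrel).trans hSx_dvd
  obtain ⟨j, -, hj⟩ := (Nat.dvd_prime_pow hp.out).mp hr_dvd
  have hj1 : j ≤ 1 := by
    have h1 : p ^ j ≤ p ^ 1 := by rw [← hj, pow_one]; exact hrel_le.1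
    exact (Nat.pow_le_pow_iff_right hp.out.one_lt).mp h1
  have hfin : Module.finrank ℚ (IntermediateField.adjoin ℚ (Set.range θ))
      = (p - 1) * p ^ (t + j) := by
    have : Module.finrank ℚ (IntermediateField.adjoin ℚ (Set.range θ)) * Nat.card Sy
        = ((p - 1) * p ^ (t + j)) * Nat.card Sy := by
      rw [E2, ← E1, ← hrel, hj, pow_add]
      ring
    exact Nat.eq_of_mul_eq_mul_right hSy_pos this
  refine ⟨t + j, hfin, ?_⟩
  interval_cases j
  · left; rfl
  · right
    refine ⟨rfl, hrel_le.2 ?_⟩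
    rw [hj, pow_one]

end Cfsg.Agent.Lib.Helper25
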