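import Mathlib
import Cfsg.Prelude.Def_Characters
import Cfsg.Agent.Lib.Helper25.Central
import Cfsg.Agent.Lib.Helper2.GoingDown
import Cfsg.Agent.Lib.Helper2.AbSylow
import Cfsg.Agent.Lib.Helper2.CharMore
import Cfsg.Agent.Lib.Helper2.CharLinear

set_option autoImplicit false

namespace Cfsg.Agent.Lib.Helper25

open Cfsg Cfsg.Agent.Lib.Helper2
open ComplexConjugate

/-- a faithful nonlinear irreducible character of a `p`-group vanishes off a normal subgroup
of index `p` -/
theorem fv_exists_index_p {P : Type*} [Group P] [Finite P] (p : ℕ) [hp : Fact p.Prime] (a : ℕ)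
    (hP : Nat.card P = p ^ a) {χ : P → ℂ} (hχ : IsIrrCharacter P χ)
    (hfaith : ∀ g : P, χ g = χ 1 → g = 1) (hdeg : χ 1 ≠ 1) :
    ∃ H : Subgroup P, H.Normal ∧ H.index = p ∧ ∀ g : P, g ∉ H → χ g = 0 := by
  classical
  have hpg : IsPGroup p P := IsPGroup.of_card hP
  have hZ : Subgroup.center P ≠ ⊤ := by
    intro htop
    apply hdeg
    apply irr_deg_one_of_comm _ hχ
    intro a b
    have : a ∈ Subgroup.center P := htop ▸ Subgroup.mem_top a
    exact (Subgroup.mem_center_iff.mp this b).symm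
  have hnt : Nontrivial (P ⧸ Subgroup.center P) := by
    by_contra hns
    rw [not_nontrivial_iff_subsingleton] at hns
    exact hZ (QuotientGroup.subgroup_eq_top_of_subsingleton _ hns)
  have hcn : Nontrivial (Subgroup.center (P ⧸ Subgroup.center P)) :=
    (hpg.to_quotient (Subgroup.center P)).center_nontrivial
  obtain ⟨⟨xq, hxq⟩, hne⟩ := exists_ne (1 : Subgroup.center (P ⧸ Subgroup.center P))
  obtain ⟨x, rfl⟩ := QuotientGroup.mk_surjective xq
  have hxZ : x ∉ Subgroup.center P := by
    intro hx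
    apply hne
    apply Subtype.ext
    exact (QuotientGroup.eq_one_iff x).mpr hx
  have hxc : ∀ g : P, x * g * x⁻¹ * g⁻¹ ∈ Subgroup.center P := by
    intro g
    rw [← QuotientGroup.eq_one_iff]
    have h1 := Subgroup.mem_center_iff.mp hxq (g : P ⧸ Subgroup.center P)
    rw [QuotientGroup.mk_mul, QuotientGroup.mk_mul, QuotientGroup.mk_mul, QuotientGroup.mk_inv,
      QuotientGroup.mk_inv, ← h1]
    group
  obtain ⟨n, ρ, hρ, rfl⟩ := hχ
  have hC : ∀ g : P, ρ.character g ≠ 0 → g ∈ Subgroup.centralizer ({x} : Set P) := by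
    intro g hg
    obtain ⟨ω, hω⟩ := central_scalar ρ hρ _ (hxc g)
    have h1 := char_scalar_mul ρ hω g
    have h2 : x * g * x⁻¹ * g⁻¹ * g = x * g * x⁻¹ := by group
    rw [h2, Representation.char_conj] at h1
    have hω1 : ω = 1 := by
      have h3 : (ω - 1) * ρ.character g = 0 := by rw [sub_mul, one_mul, ← h1, sub_self]
      rcases mul_eq_zero.mp h3 with h4 | h4
      · exact sub_eq_zero.mp h4
      · exact absurd h4 hg
    have h5 := char_scalar_mul ρ hω 1
    rw [mul_one, hω1, one_mul] at h5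
    have h6 := hfaith _ h5
    rw [Subgroup.mem_centralizer_iff]
    intro y hy
    rw [Set.mem_singleton_iff] at hy
    subst hy
    have h7 : y * g = (y * g * y⁻¹ * g⁻¹) * (g * y) := by group
    rw [h7, h6, one_mul]
  have hCne : Subgroup.centralizer ({x} : Set P) ≠ ⊤ := by
    intro htop
    apply hxZ
    rw [Subgroup.mem_center_iff]
    intro g
    have : g ∈ Subgroup.centralizer ({x} : Set P) := htop ▸ Subgroup.mem_top g
    exact (Subgroup.mem_centralizer_iff.mp this x rfl).symm
  obtain ⟨c, hca, hc⟩ := (Nat.dvd_prime_pow hp.out).mp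
    (hP ▸ Subgroup.card_subgroup_dvd_card (Subgroup.centralizer ({x} : Set P)))
  have hca' : c ≠ a := by
    rintro rfl
    apply hCne
    rw [← Subgroup.card_eq_iff_eq_top, hc, hP]
  have hdvd : p ^ (a - 1) ∣ Nat.card P := by
    rw [hP]
    exact pow_dvd_pow p (by omega)
  obtain ⟨K, hKcard, hCK⟩ := Sylow.exists_subgroup_card_pow_prime_le p hdvd
    (Subgroup.centralizer ({x} : Set P)) hc (by omega)
  have hidx : K.index = p := by
    have h1 := K.card_mul_index
    rw [hKcard, hP] at h1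
    have h2 : p ^ a = p ^ (a - 1) * p := by
      rw [← pow_succ]
      congr 1
      omega
    rw [h2] at h1
    exact Nat.eq_of_mul_eq_mul_left (pow_pos hp.out.pos _) h1
  refine ⟨K, ?_, hidx, ?_⟩
  · apply Subgroup.normal_of_index_eq_minFac_card
    rw [hidx, hP, Nat.Prime.pow_minFac hp.out (by omega)]
  · intro g hg
    by_contra h0
    exact hg (hCK (hC g h0))

/-- the restriction of an irreducible character vanishing off a normal subgroup of index `p`
is the sum of `p` distinct conjugate irreducible characters -/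
theorem fv_restrict {P : Type*} [Group P] [Fintype P] (p : ℕ) [hp : Fact p.Prime]
    (H : Subgroup P) [hH : H.Normal] [Fintype H] (hidx : H.index = p)
    {χ : P → ℂ} (hχ : IsIrrCharacter P χ) (hvan : ∀ g : P, g ∉ H → χ g = 0) :
    ∃ (θ : H → ℂ) (F : Finset (H → ℂ)), IsIrrCharacter H θ ∧ θ ∈ F ∧
      (∀ ψ ∈ F, ∃ k : P, ψ = Cfsg.Agent.Lib.Helper2.conjFun H θ k) ∧ F.card = p ∧
      (fun h : H => χ h) = ∑ ψ ∈ F, ψ := by
  classical
  have hΘ : IsCharacter H (fun h : H => χ h) :=
    IsCharacter.restrict (isCharacter_of_isIrrCharacter hχ) H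
  have hne : (fun h : H => χ h) ≠ 0 := by
    intro h0
    obtain ⟨n, hn, h1⟩ := irr_apply_one hχ
    have h2 := congrFun h0 1
    simp only [Pi.zero_apply] at h2
    change χ 1 = 0 at h2
    rw [h1] at h2
    have : (n : ℂ) ≠ 0 := by exact_mod_cast hn.ne'
    exact this h2
  obtain ⟨θ, hθ, hcon⟩ := exists_irr_constituent hΘ hne
  obtain ⟨e, he0, hsum⟩ := clifford_sum H hχ hθ hcon
  obtain ⟨F, hF⟩ : ∃ F : Finset (H → ℂ),
      F = Finset.univ.image (fun k : P => Cfsg.Agent.Lib.Helper2.conjFun H θ k) := ⟨_, rfl⟩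
  rw [← hF] at hsum
  have hFirr : ∀ ψ ∈ F, IsIrrCharacter H ψ := by
    intro ψ hψ
    rw [hF, Finset.mem_image] at hψ
    obtain ⟨k, -, rfl⟩ := hψ
    exact conjFun_irr H hθ k
  have hθF : θ ∈ F := by
    rw [hF, Finset.mem_image]
    exact ⟨1, Finset.mem_univ _,
      conjFun_of_mem H (isClassFunction_of_isIrrCharacter hθ) H.one_mem⟩
  -- inner product with a member of F
  have hin : ∀ ψ ∈ F, classInner (fun h : H => χ h) ψ = (e : ℂ) := by
    intro ψ hψ
    rw [hsum, classInner_smul_left, classInner_sum_left, Finset.sum_eq_single ψ]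
    · rw [classInner_irr_self (hFirr ψ hψ), mul_one]
    · intro ψ' hψ' hne'
      exact classInner_irr_ne (hFirr ψ' hψ') (hFirr ψ hψ) hne'
    · intro h
      exact absurd hψ h
  have hin' : ∀ ψ ∈ F, classInner ψ (fun h : H => χ h) = (e : ℂ) := by
    intro ψ hψ
    rw [← classInner_conj_symm, hin ψ hψ, Complex.conj_natCast]
  have hnorm1 : classInner (fun h : H => χ h) (fun h : H => χ h) = (e : ℂ) * (F.card : ℂ) * e := by
    conv_lhs => rw [hsum]
    rw [classInner_smul_left, classInner_sum_left, ← hsum, Finset.sum_congr rfl hin',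
      Finset.sum_const, nsmul_eq_mul]
    ring
  have hnorm2 : classInner (fun h : H => χ h) (fun h : H => χ h) = (p : ℂ) := by
    rw [classInner_def]
    have h1 : ∑ h : H, χ (h : P) * conj (χ (h : P)) = ∑ g : P, χ g * conj (χ g) := by
      rw [← Finset.sum_subtype (Finset.univ.filter (fun g : P => g ∈ H))
        (fun g => by simp) (fun g => χ g * conj (χ g))]
      apply Finset.sum_subset (Finset.filter_subset _ _)
      intro g _ hg
      rw [Finset.mem_filter] at hg
      have : g ∉ H := fun h => hg ⟨Finset.mem_univ _, h⟩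
      rw [hvan g this, zero_mul]
    rw [h1]
    have h2 := classInner_irr_self hχ
    rw [classInner_def] at h2
    have hPne : (Nat.card P : ℂ) ≠ 0 := by
      have : 0 < Nat.card P := Nat.card_pos
      exact_mod_cast this.ne'
    have hHne : (Nat.card H : ℂ) ≠ 0 := by
      have : 0 < Nat.card H := Nat.card_pos
      exact_mod_cast this.ne'
    have h3 : ∑ g : P, χ g * conj (χ g) = (Nat.card P : ℂ) := by
      field_simp at h2
      exact h2
    rw [h3]
    have h4 := H.card_mul_index
    rw [hidx] at h4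
    rw [← h4]
    push_cast
    field_simp
  have hnat : e * F.card * e = p := by
    have : ((e * F.card * e : ℕ) : ℂ) = (p : ℂ) := by
      push_cast
      rw [← hnorm1, hnorm2]
    exact_mod_cast this
  have he1 : e = 1 := by
    have hdvd : e ∣ p := ⟨F.card * e, by rw [← hnat]; ring⟩
    rcases (Nat.dvd_prime hp.out).mp hdvd with h | h
    · exact h
    · exfalso
      rw [h] at hnat
      have h5 : p * (F.card * p) = p * 1 := by rw [mul_one, ← mul_assoc]; exact hnat
      have h6 := Nat.eq_of_mul_eq_mul_left hp.out.pos h5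
      have h7 : p ∣ 1 := ⟨F.card, by rw [← h6]; ring⟩
      exact hp.out.one_lt.ne' (Nat.dvd_one.mp h7)
  rw [he1] at hnat hsum
  refine ⟨θ, F, hθ, hθF, ?_, by simpa using hnat, ?_⟩
  · intro ψ hψ
    rw [hF, Finset.mem_image] at hψ
    obtain ⟨k, -, rfl⟩ := hψ
    exact ⟨k, rfl⟩
  · rw [hsum]
    simp

/-- the kernel of a constituent is small when the character is faithful -/
theorem fv_kernel {P : Type*} [Group P] [Fintype P]
    (H : Subgroup P) [hH : H.Normal] [Fintype H]
    {χ : P → ℂ} (hfaith : ∀ g : P, χ g = χ 1 → g = 1)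
    {θ : H → ℂ} (F : Finset (H → ℂ))
    (hFconj : ∀ ψ ∈ F, ∃ k : P, ψ = Cfsg.Agent.Lib.Helper2.conjFun H θ k)
    (hsum : (fun h : H => χ h) = ∑ ψ ∈ F, ψ)
    (K : Subgroup H) (hK : ∀ h : H, h ∈ K ↔ θ h = θ 1) :
    Nat.card H ≤ K.index ^ F.card := by
  classical
  have hch : ∀ ψ : F, ∃ k : P, (ψ : H → ℂ) = Cfsg.Agent.Lib.Helper2.conjFun H θ k :=
    fun ψ => hFconj ψ.1 ψ.2
  choose kf hkf using hch
  obtain ⟨Kf, hKf⟩ : ∃ Kf : F → Subgroup H,
      Kf = fun ψ => K.comap ((MulAut.conjNormal (kf ψ) : MulAut H) : H ≃* H).toMonoidHom :=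
    ⟨_, rfl⟩
  have hidx : ∀ ψ : F, (Kf ψ).index = K.index := by
    intro ψ
    rw [hKf]
    exact Subgroup.index_comap_of_surjective K
      ((MulAut.conjNormal (kf ψ) : MulAut H) : H ≃* H).surjective
  have hbot : (⨅ ψ : F, Kf ψ) = ⊥ := by
    rw [eq_bot_iff]
    intro h hh
    rw [Subgroup.mem_iInf] at hh
    rw [Subgroup.mem_bot]
    have h1 : ∀ ψ ∈ F, ψ h = ψ 1 := by
      intro ψ hψ
      have h2 := hh ⟨ψ, hψ⟩
      rw [hKf] at h2
      have h3 : (MulAut.conjNormal (kf ⟨ψ, hψ⟩) : MulAut H) h ∈ K := h2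
      rw [hK] at h3
      have h4 := hkf ⟨ψ, hψ⟩
      change ψ = _ at h4
      rw [h4]
      change θ ((MulAut.conjNormal (kf ⟨ψ, hψ⟩) : MulAut H) h)
        = θ ((MulAut.conjNormal (kf ⟨ψ, hψ⟩) : MulAut H) 1)
      rw [h3, map_one]
    have h5 : χ (h : P) = χ 1 := by
      have e1 := congrFun hsum h
      have e2 := congrFun hsum 1
      rw [Finset.sum_apply] at e1 e2
      change χ (h : P) = _ at e1
      change χ 1 = _ at e2
      rw [e1, e2]
      exact Finset.sum_congr rfl h1
    apply Subtype.ext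
    exact hfaith _ h5
  have h6 := Subgroup.index_iInf_le Kf
  rw [hbot, Subgroup.index_bot, Finset.prod_congr rfl (fun ψ _ => hidx ψ), Finset.prod_const,
    Finset.card_univ, Fintype.card_coe] at h6
  exact h6

end Cfsg.Agent.Lib.Helper25
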