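import Mathlib
import Cfsg.Prelude.Def_Characters
import Cfsg.Agent.Lib.Helper25.FieldVal2
import Cfsg.Agent.Lib.Helper25.FieldVal3
import Cfsg.Agent.Lib.Helper25.Quot
import Cfsg.Agent.Lib.Helper25.CharKernel
import Cfsg.Agent.Lib.Helper2.PResSquares

set_option autoImplicit false

namespace Cfsg.Agent.Lib.Helper25

open Cfsg Cfsg.Agent.Lib.Helper2

universe u

/-- the linear case: a faithful linear character of a group of order `p ^ a` generates the
`p ^ a`-th cyclotomic field -/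
theorem fv_linear {P : Type*} [Group P] [Finite P] (p : ℕ) [hp : Fact p.Prime] (a t : ℕ)
    (ha : 0 < a) (hP : Nat.card P = p ^ a) {χ : P → ℂ} (hχ : IsIrrCharacter P χ)
    (hfaith : ∀ g : P, χ g = χ 1 → g = 1) (h1 : χ 1 = 1)
    (hfield : Module.finrank ℚ (IntermediateField.adjoin ℚ (Set.range χ)) = (p - 1) * p ^ t) :
    a ≤ t + 1 := by
  classical
  obtain ⟨lam, hlam⟩ := hom_of_irr_deg_one hχ h1
  have hinj : Function.Injective lam := by
    rw [injective_iff_map_eq_one]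
    intro g hg
    apply hfaith
    rw [hlam]
    simp [hg]
  have hcyc : IsCyclic P :=
    isCyclic_of_subgroup_isDomain ((Units.coeHom ℂ).comp lam) (Units.val_injective.comp hinj)
  obtain ⟨g, hg⟩ := IsCyclic.exists_ofOrder_eq_natCard (α := P)
  have hprim : IsPrimitiveRoot (χ g) (p ^ a) := by
    have h2 : orderOf (lam g) = p ^ a := by rw [orderOf_injective lam hinj g, hg, hP]
    have h3 : IsPrimitiveRoot (lam g) (p ^ a) := h2 ▸ IsPrimitiveRoot.orderOf (lam g)
    have h4 : χ g = ((lam g : ℂˣ) : ℂ) := by rw [hlam]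
    rw [h4]
    exact IsPrimitiveRoot.coe_units_iff.mpr h3
  have hpos : 0 < p ^ a := pow_pos hp.out.pos a
  have hint : IsIntegral ℚ (χ g) := (hprim.isIntegral hpos).tower_top
  have hdeg : Module.finrank ℚ (IntermediateField.adjoin ℚ ({χ g} : Set ℂ))
      = Nat.totient (p ^ a) := by
    rw [IntermediateField.adjoin.finrank hint, ← Polynomial.cyclotomic_eq_minpoly_rat hprim hpos,
      Polynomial.natDegree_cyclotomic]
  have hle : IntermediateField.adjoin ℚ ({χ g} : Set ℂ)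
      ≤ IntermediateField.adjoin ℚ (Set.range χ) :=
    IntermediateField.adjoin.mono ℚ _ _ (by rintro _ rfl; exact ⟨g, rfl⟩)
  have hp1 : 0 < p - 1 := by have := hp.out.two_le; omega
  have hfd : FiniteDimensional ℚ (IntermediateField.adjoin ℚ (Set.range χ)) := by
    apply Module.finite_of_finrank_pos
    rw [hfield]
    exact Nat.mul_pos hp1 (pow_pos hp.out.pos t)
  have h5 := IntermediateField.finrank_le_of_le_right hle
  rw [hdeg, hfield, Nat.totient_prime_pow hp.out ha] at h5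
  have h6 : p ^ (a - 1) ≤ p ^ t := by
    rw [mul_comm] at h5
    exact Nat.le_of_mul_le_mul_left h5 hp1
  have h7 := (Nat.pow_le_pow_iff_right hp.out.one_lt).mp h6
  omega

theorem fv_arith1 (p a b f₁ t : ℕ) (hp : 2 ≤ p) (ha : 1 ≤ a) (hf : 1 ≤ f₁)
    (h1 : (p - 1) * b ≤ (f₁ - 1) + (p - 1) * (t + 1) * f₁) (h2 : a - 1 ≤ b * p) :
    (p - 1) * a ≤ (p * f₁ - 1) + (p - 1) * (t + 1) * (p * f₁) := by
  obtain ⟨q, rfl⟩ : ∃ q, p = q + 1 := ⟨p - 1, by omega⟩
  obtain ⟨e, rfl⟩ : ∃ e, f₁ = e + 1 := ⟨f₁ - 1, by omega⟩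
  obtain ⟨a', rfl⟩ : ∃ a', a = a' + 1 := ⟨a - 1, by omega⟩
  simp only [Nat.add_sub_cancel] at h1 h2 ⊢
  have hsub : (q + 1) * (e + 1) - 1 = q * e + q + e := by
    apply Nat.sub_eq_of_eq_add
    ring
  rw [hsub]
  calc q * (a' + 1) = q * a' + q := by ring
    _ ≤ q * (b * (q + 1)) + q := Nat.add_le_add_right (Nat.mul_le_mul_left q h2) q
    _ = (q + 1) * (q * b) + q := by ring
    _ ≤ (q + 1) * (e + q * (t + 1) * (e + 1)) + q :=
        Nat.add_le_add_right (Nat.mul_le_mul_left _ h1) q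
    _ = (q * e + q + e) + q * (t + 1) * ((q + 1) * (e + 1)) := by ring

theorem fv_arith2 (p a f₁ t : ℕ) (hp : 2 ≤ p) (ha : 1 ≤ a) (hf : 1 ≤ f₁)
    (h1 : (p - 1) * (a - 1) ≤ (f₁ - 1) + (p - 1) * (t + 1 + 1) * f₁) :
    (p - 1) * a ≤ (p * f₁ - 1) + (p - 1) * (t + 1) * (p * f₁) := by
  obtain ⟨r, rfl⟩ : ∃ r, p = r + 2 := ⟨p - 2, by omega⟩
  obtain ⟨e, rfl⟩ : ∃ e, f₁ = e + 1 := ⟨f₁ - 1, by omega⟩
  obtain ⟨a', rfl⟩ : ∃ a', a = a' + 1 := ⟨a - 1, by omega⟩
  have hr : r + 2 - 1 = r + 1 := by omega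
  simp only [Nat.add_sub_cancel, hr] at h1 ⊢
  have hsub : (r + 2) * (e + 1) - 1 = (r + 1) * e + (r + 1) + e := by
    apply Nat.sub_eq_of_eq_add
    ring
  rw [hsub]
  have hkey : (r + 1) * e + (r + 1) + e + (r + 1) * (t + 1) * ((r + 2) * (e + 1))
      = (e + (r + 1) * (t + 1 + 1) * (e + 1)) + (r + 1)
        + ((r + 1) * e + (r + 1) * (e + 1) * (t * r + r + t)) := by ring
  rw [hkey]
  calc (r + 1) * (a' + 1) = (r + 1) * a' + (r + 1) := by ring
    _ ≤ (e + (r + 1) * (t + 1 + 1) * (e + 1)) + (r + 1) := Nat.add_le_add_right h1 _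
    _ ≤ _ := Nat.le_add_right _ _

/-- the order bound for faithful irreducible characters of `p`-groups -/
theorem fv_main (p : ℕ) [hp : Fact p.Prime] : ∀ (a : ℕ) (P : Type u) [Group P] [Finite P],
    Nat.card P = p ^ a → ∀ (χ : P → ℂ), IsIrrCharacter P χ → (∀ g : P, χ g = χ 1 → g = 1) →
    ∀ (f t : ℕ), χ 1 = (f : ℂ) →
    Module.finrank ℚ (IntermediateField.adjoin ℚ (Set.range χ)) = (p - 1) * p ^ t →
    (p - 1) * a ≤ (f - 1) + (p - 1) * (t + 1) * f := by
  intro a
  induction a using Nat.strong_induction_on with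
  | _ a ih =>
  intro P _ _ hP χ hχ hfaith f t hf hfield
  classical
  have := Fintype.ofFinite P
  rcases Nat.eq_zero_or_pos a with rfl | ha
  · simp
  have hp1 : 0 < p - 1 := by have := hp.out.two_le; omega
  by_cases hf1 : f = 1
  · subst hf1
    have h1 : χ 1 = 1 := by rw [hf]; simp
    have h2 := fv_linear p a t ha hP hχ hfaith h1 hfield
    calc (p - 1) * a ≤ (p - 1) * (t + 1) := Nat.mul_le_mul_left _ h2
      _ ≤ (1 - 1) + (p - 1) * (t + 1) * 1 := by simp
  · have hdeg : χ 1 ≠ 1 := by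
      rw [hf]
      intro h
      apply hf1
      exact_mod_cast h
    obtain ⟨H, hHn, hidx, hvan⟩ := fv_exists_index_p p a hP hχ hfaith hdeg
    have := Fintype.ofFinite H
    obtain ⟨θ, F, hθ, hθF, hFconj, hFcard, hsum⟩ := fv_restrict p H hidx hχ hvan
    obtain ⟨t', hfield', ht'⟩ :=
      fv_step p a t ha hP H hχ hvan hθ F hθF hFconj hFcard hsum hfield
    obtain ⟨f₁, hf₁pos, hf₁⟩ := irr_apply_one hθ
    have e0 : ∀ h : H, χ (h : P) = ∑ ψ ∈ F, ψ h := by
      intro h
      have := congrFun hsum h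
      rw [Finset.sum_apply] at this
      exact this
    have hff : f = p * f₁ := by
      have e1 := e0 1
      change χ 1 = _ at e1
      have e2 : ∀ ψ ∈ F, ψ 1 = θ 1 := by
        intro ψ hψ
        obtain ⟨k, rfl⟩ := hFconj ψ hψ
        change θ ((MulAut.conjNormal k : MulAut H) 1) = θ 1
        rw [map_one]
      rw [Finset.sum_congr rfl e2, Finset.sum_const, nsmul_eq_mul, hFcard, hf, hf₁] at e1
      exact_mod_cast e1
    have hHcard : Nat.card H = p ^ (a - 1) := by
      have h1 := H.card_mul_index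
      rw [hidx, hP] at h1
      have h2 : p ^ a = p ^ (a - 1) * p := by
        rw [← pow_succ]
        congr 1
        omega
      rw [h2] at h1
      exact Nat.eq_of_mul_eq_mul_right hp.out.pos h1
    obtain ⟨K, hKn, hK, -⟩ := exists_charKernel (⟨θ, hθ⟩ : IrrCharacter H)
    have hK' : ∀ h : H, h ∈ K ↔ θ h = θ 1 := hK
    have hker := fv_kernel H hfaith F hFconj hsum K hK'
    rw [hFcard, hHcard] at hker
    obtain ⟨b, hb, hKidx⟩ := (Nat.dvd_prime_pow hp.out).mp (hHcard ▸ K.index_dvd_card)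
    rw [hKidx, ← pow_mul] at hker
    have hab : a - 1 ≤ b * p := (Nat.pow_le_pow_iff_right hp.out.one_lt).mp hker
    obtain ⟨ψ, hψ, hψθ⟩ := deflate_irr K hθ (fun n hn => (hK' n).mp hn)
    have hQcard : Nat.card (H ⧸ K) = p ^ b := hKidx
    have hψ1' : ψ 1 = θ 1 := hψθ 1
    have hψfaith : ∀ q : H ⧸ K, ψ q = ψ 1 → q = 1 := by
      intro q hq
      obtain ⟨h, rfl⟩ := QuotientGroup.mk_surjective q
      rw [hψθ, hψ1'] at hq
      exact (QuotientGroup.eq_one_iff h).mpr ((hK' h).mpr hq)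
    have hψ1 : ψ 1 = (f₁ : ℂ) := by rw [hψ1', hf₁]
    have hrange : Set.range ψ = Set.range θ := by
      ext z
      constructor
      · rintro ⟨q, rfl⟩
        obtain ⟨h, rfl⟩ := QuotientGroup.mk_surjective q
        exact ⟨h, (hψθ h).symm⟩
      · rintro ⟨h, rfl⟩
        exact ⟨(h : H ⧸ K), hψθ h⟩
    have hfieldψ : Module.finrank ℚ (IntermediateField.adjoin ℚ (Set.range ψ))
        = (p - 1) * p ^ t' := by
      rw [hrange]
      exact hfield'
    have hb_lt : b < a := by omega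
    have hIH := ih b hb_lt (H ⧸ K) hQcard ψ hψ hψfaith f₁ t' hψ1 hfieldψ
    rw [hff]
    rcases ht' with rfl | ⟨rfl, hall⟩
    · exact fv_arith1 p a b f₁ t' hp.out.two_le ha hf₁pos hIH hab
    · have hKbot : K = ⊥ := by
        rw [eq_bot_iff]
        intro h hh
        rw [Subgroup.mem_bot]
        have h1 : ∀ ψ' ∈ F, ψ' h = ψ' 1 := by
          intro ψ' hψ'
          obtain ⟨m, -, hm⟩ := hall ψ' hψ'
          rw [hm h, hm 1, one_pow]
          exact (hK' _).mp (pow_mem hh m)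
        have h5 : χ (h : P) = χ 1 := by
          have e1 := e0 h
          have e2 := e0 1
          change χ 1 = _ at e2
          rw [e1, e2]
          exact Finset.sum_congr rfl h1
        apply Subtype.ext
        exact hfaith _ h5
      have hba : b = a - 1 := by
        rw [hKbot, Subgroup.index_bot, hHcard] at hKidx
        exact (Nat.pow_right_injective hp.out.two_le hKidx).symm
      rw [hba] at hIH
      exact fv_arith2 p a f₁ t hp.out.two_le ha hf₁pos hIH

end Cfsg.Agent.Lib.Helper25
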