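import Mathlib

set_option autoImplicit false

namespace Cfsg.Agent.Lib.Helper25

/-- a normalized 2-cocycle of a group with values in a commutative group -/
structure Coc (Γ A : Type*) [Group Γ] [CommGroup A] where
  α : Γ → Γ → A
  one_left : ∀ g, α 1 g = 1
  one_right : ∀ g, α g 1 = 1
  coc : ∀ g h k, α g h * α (g * h) k = α h k * α g (h * k)

/-- the central extension defined by a cocycle -/
@[ext] structure CExt {Γ A : Type*} [Group Γ] [CommGroup A] (c : Coc Γ A) where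
  z : A
  g : Γ

namespace CExt

variable {Γ A : Type*} [Group Γ] [CommGroup A] (c : Coc Γ A)

instance instMul : Mul (CExt c) := ⟨fun x y => ⟨x.z * y.z * c.α x.g y.g, x.g * y.g⟩⟩
instance instOne : One (CExt c) := ⟨⟨1, 1⟩⟩
instance instInv : Inv (CExt c) := ⟨fun x => ⟨x.z⁻¹ * (c.α x.g⁻¹ x.g)⁻¹, x.g⁻¹⟩⟩

theorem mul_z (x y : CExt c) : (x * y).z = x.z * y.z * c.α x.g y.g := rfl
theorem mul_g (x y : CExt c) : (x * y).g = x.g * y.g := rfl
theorem one_z : (1 : CExt c).z = 1 := rfl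
theorem one_g : (1 : CExt c).g = 1 := rfl
theorem inv_z (x : CExt c) : (x⁻¹).z = x.z⁻¹ * (c.α x.g⁻¹ x.g)⁻¹ := rfl
theorem inv_g (x : CExt c) : (x⁻¹).g = x.g⁻¹ := rfl

instance instGroup : Group (CExt c) := Group.ofLeftAxioms
  (by
    intro x y w
    ext
    · simp only [mul_z, mul_g]
      have h := c.coc x.g y.g w.g
      calc x.z * y.z * c.α x.g y.g * w.z * c.α (x.g * y.g) w.g
          = (x.z * y.z * w.z) * (c.α x.g y.g * c.α (x.g * y.g) w.g) := by ac_rfl
        _ = (x.z * y.z * w.z) * (c.α y.g w.g * c.α x.g (y.g * w.g)) := by rw [h]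
        _ = x.z * (y.z * w.z * c.α y.g w.g) * c.α x.g (y.g * w.g) := by ac_rfl
    · simp only [mul_g, mul_assoc])
  (by
    intro x
    ext
    · simp only [mul_z, one_z, one_g, c.one_left, one_mul, mul_one]
    · simp only [mul_g, one_g, one_mul])
  (by
    intro x
    ext
    · simp only [mul_z, inv_z, inv_g, one_z]
      calc x.z⁻¹ * (c.α x.g⁻¹ x.g)⁻¹ * x.z * c.α x.g⁻¹ x.g
          = (x.z⁻¹ * x.z) * ((c.α x.g⁻¹ x.g)⁻¹ * c.α x.g⁻¹ x.g) := by ac_rfl
        _ = 1 := by rw [inv_mul_cancel, inv_mul_cancel, one_mul]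
    · simp only [mul_g, inv_g, one_g, inv_mul_cancel])

/-- the underlying pair -/
def toProd : CExt c ≃ A × Γ :=
  ⟨fun x => (x.z, x.g), fun p => ⟨p.1, p.2⟩, fun _ => rfl, fun _ => rfl⟩

instance instFinite [Finite Γ] [Finite A] : Finite (CExt c) := Finite.of_equiv _ (toProd c).symm

theorem card_eq : Nat.card (CExt c) = Nat.card A * Nat.card Γ := by
  rw [Nat.card_congr (toProd c), Nat.card_prod]

/-- the central embedding of the coefficient group -/
def ι : A →* CExt c where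
  toFun a := ⟨a, 1⟩
  map_one' := rfl
  map_mul' _ _ := by
    ext
    · simp only [mul_z, c.one_left, mul_one]
    · simp only [mul_g, mul_one]

theorem ι_z (a : A) : (ι c a).z = a := rfl
theorem ι_g (a : A) : (ι c a).g = 1 := rfl

theorem ι_injective : Function.Injective (ι c) := fun _ _ h => congrArg CExt.z h

theorem ι_central (a : A) (x : CExt c) : ι c a * x = x * ι c a := by
  ext
  · simp only [mul_z, ι_z, ι_g, c.one_left, c.one_right, mul_one, mul_comm]
  · simp only [mul_g, ι_g, one_mul, mul_one]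

theorem mem_range_ι_iff (x : CExt c) : x ∈ (ι c).range ↔ x.g = 1 := by
  constructor
  · rintro ⟨a, rfl⟩
    rfl
  · intro h
    refine ⟨x.z, ?_⟩
    ext
    · rfl
    · exact h.symm

theorem range_ι_le_center : (ι c).range ≤ Subgroup.center (CExt c) := by
  rintro _ ⟨a, rfl⟩
  rw [Subgroup.mem_center_iff]
  intro x
  exact (ι_central c a x).symm

theorem comm_eq (x y : CExt c) (h : x.g * y.g = y.g * x.g) :
    x * y = ι c (c.α x.g y.g * (c.α y.g x.g)⁻¹) * (y * x) := by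
  ext
  · simp only [mul_z, mul_g, ι_z, ι_g, c.one_left, mul_one]
    calc x.z * y.z * c.α x.g y.g
        = c.α x.g y.g * (y.z * x.z) * ((c.α y.g x.g)⁻¹ * c.α y.g x.g) := by
          rw [inv_mul_cancel, mul_one]; ac_rfl
      _ = c.α x.g y.g * (c.α y.g x.g)⁻¹ * (y.z * x.z * c.α y.g x.g) := by ac_rfl
  · simp only [mul_g, ι_g, one_mul, h]

theorem comm_eq' (x y : CExt c) (h : x.g * y.g = y.g * x.g) :
    x * y * x⁻¹ * y⁻¹ = ι c (c.α x.g y.g * (c.α y.g x.g)⁻¹) := by
  rw [comm_eq c x y h]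
  group

/-- nondegeneracy gives the commutator hypothesis -/
theorem comm_hyp (hnd : ∀ g : Γ, g ≠ 1 → ∃ h, g * h = h * g ∧ c.α g h ≠ c.α h g) :
    ∀ y : CExt c, y ∉ (ι c).range →
      ∃ x : CExt c, x * y * x⁻¹ * y⁻¹ ∈ (ι c).range ∧ x * y * x⁻¹ * y⁻¹ ≠ 1 := by
  intro y hy
  rw [mem_range_ι_iff] at hy
  obtain ⟨h, hcomm, hne⟩ := hnd y.g hy
  refine ⟨⟨1, h⟩, ?_⟩
  have h1 := comm_eq' c (⟨1, h⟩ : CExt c) y hcomm.symm
  rw [h1]
  refine ⟨⟨_, rfl⟩, ?_⟩
  intro h2
  have h3 := congrArg CExt.z h2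
  rw [ι_z, one_z, mul_inv_eq_one] at h3
  exact hne h3.symm

theorem center_eq (hnd : ∀ g : Γ, g ≠ 1 → ∃ h, g * h = h * g ∧ c.α g h ≠ c.α h g) :
    Subgroup.center (CExt c) = (ι c).range := by
  refine le_antisymm ?_ (range_ι_le_center c)
  intro y hy
  by_contra hn
  obtain ⟨x, -, hx⟩ := comm_hyp c hnd y hn
  apply hx
  rw [Subgroup.mem_center_iff] at hy
  rw [hy x]
  group

/-- the map of the base group to the central quotient -/
def toQuot : Γ →* CExt c ⧸ Subgroup.center (CExt c) :=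
  MonoidHom.mk' (fun g => QuotientGroup.mk (⟨1, g⟩ : CExt c)) (by
    intro g h
    have h1 : (⟨1, g⟩ : CExt c) * ⟨1, h⟩ = ι c (c.α g h) * ⟨1, g * h⟩ := by
      ext
      · simp only [mul_z, ι_z, ι_g, c.one_left, mul_one, one_mul]
      · simp only [mul_g, ι_g, one_mul]
    have h2 : ((ι c (c.α g h) : CExt c) : CExt c ⧸ Subgroup.center (CExt c)) = 1 :=
      (QuotientGroup.eq_one_iff _).mpr (range_ι_le_center c ⟨_, rfl⟩)
    rw [← QuotientGroup.mk_mul, h1, QuotientGroup.mk_mul, h2, one_mul])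

theorem toQuot_injective (hc : Subgroup.center (CExt c) ≤ (ι c).range) :
    Function.Injective (toQuot c) := by
  intro g h hgh
  have h1 : ((⟨1, g⟩ : CExt c) : CExt c ⧸ Subgroup.center (CExt c)) = ((⟨1, h⟩ : CExt c) :
      CExt c ⧸ Subgroup.center (CExt c)) := hgh
  rw [QuotientGroup.eq] at h1
  have h2 := (mem_range_ι_iff c _).mp (hc h1)
  rw [mul_g, inv_g] at h2
  exact inv_mul_eq_one.mp h2

end CExt

end Cfsg.Agent.Lib.Helper25
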