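import Mathlib
import Cfsg.Agent.Lib.Helper25.Gagola1

set_option autoImplicit false

namespace Cfsg.Agent.Lib.Helper25

/-- a nondegenerate bimultiplicative pairing on a group of prime order -/
theorem exists_bichar (p : ℕ) [Fact p.Prime] (Q : Type*) [Group Q] (hQ : Nat.card Q = p) :
    ∃ b : Q → Q → ℂˣ, (∀ j j' q, b (j * j') q = b j q * b j' q) ∧
      (∀ j q q', b j (q * q') = b j q * b j q') ∧ (∀ j q, j ≠ 1 → q ≠ 1 → b j q ≠ 1) ∧
      (∀ j q, b j q ∈ rootsOfUnity p ℂ) ∧ ∀ a a' : Q, a * a' = a' * a := by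
  have hp : p.Prime := Fact.out
  have : NeZero p := ⟨hp.ne_zero⟩
  have hZ : Nat.card (Multiplicative (ZMod p)) = p := by
    rw [Nat.card_congr Multiplicative.toAdd, Nat.card_zmod]
  obtain ⟨e⟩ : Nonempty (Q ≃* Multiplicative (ZMod p)) := ⟨mulEquivOfPrimeCardEq hQ hZ⟩
  obtain ⟨ψ, hψdef⟩ : ∃ ψ : Multiplicative (ZMod p) →* ℂˣ,
      ψ = (ZMod.stdAddChar (N := p)).toMonoidHom.toHomUnits := ⟨_, rfl⟩
  have hψ : ∀ x : ZMod p, ψ (Multiplicative.ofAdd x) = 1 → x = 0 := by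
    intro x hx
    have h1 : (ZMod.stdAddChar (N := p)) x = 1 := by
      have h0 := congrArg Units.val hx
      rw [hψdef, MonoidHom.coe_toHomUnits] at h0
      exact h0
    have h2 : (ZMod.stdAddChar (N := p)) x = (ZMod.stdAddChar (N := p)) 0 := by
      rw [h1, AddChar.map_zero_eq_one]
    exact ZMod.injective_stdAddChar h2
  refine ⟨fun j q => ψ (Multiplicative.ofAdd
    (Multiplicative.toAdd (e j) * Multiplicative.toAdd (e q))), ?_, ?_, ?_, ?_, ?_⟩
  · intro j j' q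
    simp only [map_mul, toAdd_mul, add_mul, ofAdd_add]
  · intro j q q'
    simp only [map_mul, toAdd_mul, mul_add, ofAdd_add]
  · intro j q hj hq h
    have h1 := hψ _ h
    rcases mul_eq_zero.mp h1 with h2 | h2
    · apply hj
      apply e.injective
      rw [map_one]
      exact Multiplicative.toAdd.injective h2
    · apply hq
      apply e.injective
      rw [map_one]
      exact Multiplicative.toAdd.injective h2
  · intro j q
    rw [mem_rootsOfUnity, ← map_pow]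
    have h1 : ∀ y : Multiplicative (ZMod p), y ^ p = 1 := by
      intro y
      have h2 := pow_card_eq_one' (x := y)
      rw [hZ] at h2
      exact h2
    rw [h1, map_one]
  · intro a a'
    apply e.injective
    rw [map_mul, map_mul, mul_comm]

/-- the cocycle of the wreath step -/
noncomputable def wrCoc {Γ₀ Q : Type*} [Group Γ₀] [Group Q] [Fintype Q] (c₀ : Coc Γ₀ ℂˣ)
    (b : Q → Q → ℂˣ) (hb1 : ∀ j j' q, b (j * j') q = b j q * b j' q)
    (hb2 : ∀ j q q', b j (q * q') = b j q * b j q') : Coc ((Γ₀ ≀ᵣ Q) × Q) ℂˣ where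
  α x y := (∏ t : Q, c₀.α (x.1.left t) (y.1.left (x.1.right⁻¹ * t))) * b x.2 y.1.right
  one_left := by
    intro y
    have h1 : b 1 y.1.right = 1 := by simpa using hb1 1 1 y.1.right
    simp only [Prod.fst_one, Prod.snd_one, RegularWreathProduct.one_left, Pi.one_apply,
      c₀.one_left, Finset.prod_const_one, h1, mul_one]
  one_right := by
    intro x
    have h1 : b x.2 1 = 1 := by simpa using hb2 x.2 1 1
    simp only [Prod.fst_one, RegularWreathProduct.one_left, RegularWreathProduct.one_right,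
      Pi.one_apply, c₀.one_right, Finset.prod_const_one, h1, mul_one]
  coc := by
    intro x y w
    have hb : b x.2 y.1.right * b (x.2 * y.2) w.1.right
        = b y.2 w.1.right * b x.2 (y.1.right * w.1.right) := by
      rw [hb1, hb2]
      ac_rfl
    have hre : (∏ t : Q, c₀.α (y.1.left t) (w.1.left (y.1.right⁻¹ * t)))
        = ∏ t : Q, c₀.α (y.1.left (x.1.right⁻¹ * t))
            (w.1.left (y.1.right⁻¹ * (x.1.right⁻¹ * t))) :=
      (Equiv.prod_comp (Equiv.mulLeft x.1.right⁻¹)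
        (fun t => c₀.α (y.1.left t) (w.1.left (y.1.right⁻¹ * t)))).symm
    have hP : (∏ t : Q, c₀.α (x.1.left t) (y.1.left (x.1.right⁻¹ * t)))
        * (∏ t : Q, c₀.α (x.1.left t * y.1.left (x.1.right⁻¹ * t))
            (w.1.left ((x.1.right * y.1.right)⁻¹ * t)))
        = (∏ t : Q, c₀.α (y.1.left t) (w.1.left (y.1.right⁻¹ * t)))
          * (∏ t : Q, c₀.α (x.1.left t) (y.1.left (x.1.right⁻¹ * t)
              * w.1.left (y.1.right⁻¹ * (x.1.right⁻¹ * t)))) := by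
      rw [hre, ← Finset.prod_mul_distrib, ← Finset.prod_mul_distrib]
      refine Finset.prod_congr rfl (fun t _ => ?_)
      have h1 := c₀.coc (x.1.left t) (y.1.left (x.1.right⁻¹ * t))
        (w.1.left (y.1.right⁻¹ * (x.1.right⁻¹ * t)))
      rw [← h1, mul_inv_rev, mul_assoc]
    show (∏ t : Q, c₀.α (x.1.left t) (y.1.left (x.1.right⁻¹ * t))) * b x.2 y.1.right
        * ((∏ t : Q, c₀.α (x.1.left t * y.1.left (x.1.right⁻¹ * t))
            (w.1.left ((x.1.right * y.1.right)⁻¹ * t))) * b (x.2 * y.2) w.1.right)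
        = (∏ t : Q, c₀.α (y.1.left t) (w.1.left (y.1.right⁻¹ * t))) * b y.2 w.1.right
          * ((∏ t : Q, c₀.α (x.1.left t) (y.1.left (x.1.right⁻¹ * t)
              * w.1.left (y.1.right⁻¹ * (x.1.right⁻¹ * t)))) * b x.2 (y.1.right * w.1.right))
    rw [mul_mul_mul_comm, hP, hb, mul_mul_mul_comm]

theorem wrCoc_apply {Γ₀ Q : Type*} [Group Γ₀] [Group Q] [Fintype Q] (c₀ : Coc Γ₀ ℂˣ)
    (b : Q → Q → ℂˣ) (hb1 : ∀ j j' q, b (j * j') q = b j q * b j' q)
    (hb2 : ∀ j q q', b j (q * q') = b j q * b j q') (x y : (Γ₀ ≀ᵣ Q) × Q) :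
    (wrCoc c₀ b hb1 hb2).α x y
      = (∏ t : Q, c₀.α (x.1.left t) (y.1.left (x.1.right⁻¹ * t))) * b x.2 y.1.right := rfl

theorem wrCoc_mem {Γ₀ Q : Type*} [Group Γ₀] [Group Q] [Fintype Q] (c₀ : Coc Γ₀ ℂˣ)
    (b : Q → Q → ℂˣ) (hb1 : ∀ j j' q, b (j * j') q = b j q * b j' q)
    (hb2 : ∀ j q q', b j (q * q') = b j q * b j q') (N : ℕ)
    (h₀ : ∀ g h, c₀.α g h ∈ rootsOfUnity N ℂ) (hb : ∀ j q, b j q ∈ rootsOfUnity N ℂ)
    (x y : (Γ₀ ≀ᵣ Q) × Q) : (wrCoc c₀ b hb1 hb2).α x y ∈ rootsOfUnity N ℂ :=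
  mul_mem (Subgroup.prod_mem _ (fun _ _ => h₀ _ _)) (hb _ _)

end Cfsg.Agent.Lib.Helper25
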