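import Mathlib
import Cfsg.Prelude.Def_Characters
import Cfsg.Agent.Lib.Helper2.CharBasic
import Cfsg.Agent.Lib.Helper2.CharComplete
import Cfsg.Agent.Lib.Helper25.Central

set_option autoImplicit false

namespace Cfsg.Agent.Lib.Helper25

open Cfsg.Agent.Lib.Helper2 Module TensorProduct
open scoped ComplexConjugate

section twist

variable {G : Type*} [Group G] [Fintype G]
variable {V W : Type*} [AddCommGroup V] [Module ℂ V] [FiniteDimensional ℂ V]
  [AddCommGroup W] [Module ℂ W] [FiniteDimensional ℂ W]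

omit [Fintype G] [FiniteDimensional ℂ V] [FiniteDimensional ℂ W] in
/-- the twisted sum over a normal subgroup commutes with the tensor product representation -/
theorem gp_twist_comm (ρ : Representation ℂ G V) (τ : Representation ℂ G W)
    (T : Subgroup G) [T.Normal] [Fintype T] (j : ℕ) (g : G) :
    (∑ x : T, (TensorProduct.map (ρ (x : G)) (τ ((x : G) ^ j)) : Module.End ℂ (V ⊗[ℂ] W)))
        * (ρ.tprod τ) g
      = (ρ.tprod τ) g *
        (∑ x : T, (TensorProduct.map (ρ (x : G)) (τ ((x : G) ^ j)) : Module.End ℂ (V ⊗[ℂ] W))) := by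
  rw [Representation.tprod_apply, Finset.sum_mul, Finset.mul_sum]
  apply Fintype.sum_equiv (MulAut.conjNormal g⁻¹ : T ≃* T).toEquiv
  intro x
  rw [← TensorProduct.map_mul, ← TensorProduct.map_mul]
  have h1 : ((MulAut.conjNormal g⁻¹ : T ≃* T).toEquiv x : G) = g⁻¹ * (x : G) * g := by
    have := MulAut.conjNormal_apply (H := T) g⁻¹ x
    simpa using this
  rw [h1]
  have e1 : ρ (x : G) * ρ g = ρ g * ρ (g⁻¹ * (x : G) * g) := by
    rw [← map_mul, ← map_mul]
    congr 1
    group
  have e2 : τ ((x : G) ^ j) * τ g = τ g * τ ((g⁻¹ * (x : G) * g) ^ j) := by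
    rw [← map_mul, ← map_mul]
    congr 1
    have : (g⁻¹ * (x : G) * g) ^ j = g⁻¹ * (x : G) ^ j * g := by
      have := conj_pow (a := g⁻¹) (b := (x : G)) (i := j)
      simpa using this
    rw [this]
    group
  rw [e1, e2]

/-- the twisted trace identity coming from Schur's lemma -/
theorem gp_twist (ρ : Representation ℂ G V) (τ : Representation ℂ G W)
    [hirr : (ρ.tprod τ).IsIrreducible] (T : Subgroup G) [T.Normal] [Fintype T] (j : ℕ) (a b : G) :
    (finrank ℂ V : ℂ) * (finrank ℂ W : ℂ) *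
        ∑ x : T, ρ.character ((x : G) * a) * τ.character ((x : G) ^ j * b)
      = (∑ x : T, ρ.character (x : G) * τ.character ((x : G) ^ j)) *
          (ρ.character a * τ.character b) := by
  obtain ⟨c, hc⟩ := schur_scalar (ρ.tprod τ)
    (∑ x : T, (TensorProduct.map (ρ (x : G)) (τ ((x : G) ^ j)) : Module.End ℂ (V ⊗[ℂ] W)))
    (gp_twist_comm ρ τ T j)
  have htr1 : LinearMap.trace ℂ (V ⊗[ℂ] W)
      (∑ x : T, (TensorProduct.map (ρ (x : G)) (τ ((x : G) ^ j)) : Module.End ℂ (V ⊗[ℂ] W)))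
      = ∑ x : T, ρ.character (x : G) * τ.character ((x : G) ^ j) := by
    rw [map_sum]
    apply Finset.sum_congr rfl
    intro x _
    rw [LinearMap.trace_tensorProduct']
    rfl
  have htr2 : LinearMap.trace ℂ (V ⊗[ℂ] W)
      ((∑ x : T, (TensorProduct.map (ρ (x : G)) (τ ((x : G) ^ j)) : Module.End ℂ (V ⊗[ℂ] W))) *
        (TensorProduct.map (ρ a) (τ b) : Module.End ℂ (V ⊗[ℂ] W)))
      = ∑ x : T, ρ.character ((x : G) * a) * τ.character ((x : G) ^ j * b) := by
    rw [Finset.sum_mul, map_sum]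
    apply Finset.sum_congr rfl
    intro x _
    rw [← TensorProduct.map_mul, ← map_mul, ← map_mul, LinearMap.trace_tensorProduct']
    rfl
  rw [hc] at htr1 htr2
  rw [map_smul, LinearMap.trace_id, smul_eq_mul, Module.finrank_tensorProduct] at htr1
  have h5 : (c • (LinearMap.id : V ⊗[ℂ] W →ₗ[ℂ] V ⊗[ℂ] W)) *
      (TensorProduct.map (ρ a) (τ b) : Module.End ℂ (V ⊗[ℂ] W))
      = c • (TensorProduct.map (ρ a) (τ b) : Module.End ℂ (V ⊗[ℂ] W)) := by
    rw [smul_mul_assoc]
    rfl
  rw [h5, map_smul, smul_eq_mul, LinearMap.trace_tensorProduct'] at htr2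
  rw [← htr1, ← htr2]
  have h3 : LinearMap.trace ℂ V (ρ a) = ρ.character a := rfl
  have h4 : LinearMap.trace ℂ W (τ b) = τ.character b := rfl
  rw [h3, h4]
  push_cast
  ring

end twist

end Cfsg.Agent.Lib.Helper25
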