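import Mathlib

set_option autoImplicit false

/-!
Spans of finite families of complex vectors compared through their Gram-type sums.
-/

namespace Cfsg.Agent.Lib.Helper25

open scoped ComplexConjugate

/-- if the sums `∑ v i x * conj (v i y)` over `A` are a fixed multiple of the same sums over
`A₁`, the span of the `v i` with `i ∈ A` lies in the span of those with `i ∈ A₁` -/
theorem span_le_of_gram {I X : Type*} [Fintype I] [Fintype X] (A A₁ : Set I)
    [DecidablePred (· ∈ A)] [DecidablePred (· ∈ A₁)] (v : I → X → ℂ) (κ : ℂ)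
    (h : ∀ x y : X, ∑ i : I, (if i ∈ A then (1 : ℂ) else 0) * (v i x * conj (v i y))
        = κ * ∑ i : I, (if i ∈ A₁ then (1 : ℂ) else 0) * (v i x * conj (v i y))) :
    Submodule.span ℂ (v '' A) ≤ Submodule.span ℂ (v '' A₁) := by
  classical
  rw [Submodule.span_le]
  rintro _ ⟨i₀, hi₀, rfl⟩
  by_contra hnot
  obtain ⟨f, hf1, hf2⟩ := Submodule.exists_le_ker_of_notMem hnot
  set c : X → ℂ := fun x => f (fun j => if x = j then 1 else 0) with hc
  have hfv : ∀ w : X → ℂ, f w = ∑ x, w x * c x := by
    intro w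
    rw [LinearMap.pi_apply_eq_sum_univ f w]
    apply Finset.sum_congr rfl
    intro x _
    rw [smul_eq_mul]
  set L : I → ℂ := fun i => f (v i) with hL
  have hL1 : ∀ i ∈ A₁, L i = 0 := fun i hi =>
    LinearMap.mem_ker.mp (hf2 (Submodule.subset_span ⟨i, hi, rfl⟩))
  have key : ∀ (T : Set I) [DecidablePred (· ∈ T)],
      ∑ i, (if i ∈ T then (1 : ℂ) else 0) * (L i * conj (L i))
      = ∑ x, ∑ y, c x * conj (c y)
        * ∑ i, (if i ∈ T then (1 : ℂ) else 0) * (v i x * conj (v i y)) := by
    intro T _
    have e1 : ∀ i, (if i ∈ T then (1 : ℂ) else 0) * (L i * conj (L i))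
        = ∑ x, ∑ y, c x * conj (c y)
          * ((if i ∈ T then (1 : ℂ) else 0) * (v i x * conj (v i y))) := by
      intro i
      change (if i ∈ T then (1 : ℂ) else 0) * (f (v i) * conj (f (v i))) = _
      rw [hfv (v i), map_sum, Finset.sum_mul_sum, Finset.mul_sum]
      apply Finset.sum_congr rfl
      intro x _
      rw [Finset.mul_sum]
      apply Finset.sum_congr rfl
      intro y _
      rw [map_mul]
      ring
    rw [Finset.sum_congr rfl (fun i _ => e1 i), Finset.sum_comm]
    apply Finset.sum_congr rfl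
    intro x _
    rw [Finset.sum_comm]
    apply Finset.sum_congr rfl
    intro y _
    rw [Finset.mul_sum]
  have hsumA : ∑ i, (if i ∈ A then (1 : ℂ) else 0) * (L i * conj (L i)) = 0 := by
    rw [key A]
    simp only [h]
    have e : ∑ x, ∑ y, c x * conj (c y)
          * (κ * ∑ i, (if i ∈ A₁ then (1 : ℂ) else 0) * (v i x * conj (v i y)))
        = κ * ∑ x, ∑ y, c x * conj (c y)
          * ∑ i, (if i ∈ A₁ then (1 : ℂ) else 0) * (v i x * conj (v i y)) := by
      rw [Finset.mul_sum]
      apply Finset.sum_congr rfl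
      intro x _
      rw [Finset.mul_sum]
      apply Finset.sum_congr rfl
      intro y _
      ring
    rw [e, ← key A₁]
    have e2 : ∑ i, (if i ∈ A₁ then (1 : ℂ) else 0) * (L i * conj (L i)) = 0 := by
      apply Finset.sum_eq_zero
      intro i _
      by_cases hi : i ∈ A₁
      · rw [hL1 i hi, zero_mul, mul_zero]
      · rw [if_neg hi, zero_mul]
    rw [e2, mul_zero]
  have hnn : ∀ i, (if i ∈ A then (1 : ℂ) else 0) * (L i * conj (L i))
      = (((if i ∈ A then Complex.normSq (L i) else 0 : ℝ)) : ℂ) := by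
    intro i
    rw [Complex.mul_conj]
    split_ifs <;> simp
  rw [Finset.sum_congr rfl (fun i _ => hnn i), ← Complex.ofReal_sum, Complex.ofReal_eq_zero]
    at hsumA
  have h0 := (Finset.sum_eq_zero_iff_of_nonneg (fun i _ => by
    split_ifs
    · exact Complex.normSq_nonneg _
    · exact le_refl 0)).mp hsumA i₀ (Finset.mem_univ i₀)
  rw [if_pos hi₀, Complex.normSq_eq_zero] at h0
  exact hf1 h0

end Cfsg.Agent.Lib.Helper25
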