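import Mathlib
import Cfsg.Prelude
import Cfsg.Agent.Lib.Helper1.Tate
import Cfsg.Agent.Lib.Helper1.PRes
import Cfsg.Agent.Lib.Helper1.Basic
import Cfsg.Agent.Lib.Helper18.PGroupFrat
import Cfsg.Agent.S0072
import Cfsg.Agent.S0081

set_option autoImplicit false

/-!
Normal complements, part 1 (group theory): a normal subgroup `M` containing a Sylow `p`-subgroup
`P` in which `M`-fusion of elements of `P` is trivial modulo `P'` has a normal `p`-complement,
which is normal in the whole group.  The fusion hypothesis follows when `N_M(P) = P` and some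
normal subgroup `D` meets `P` in `P'`.
-/

namespace Cfsg.Agent.Lib.Helper25

open Cfsg Cfsg.Agent.Lib.Helper1
open scoped commutatorElement
open Pointwise

section nc1

variable {X : Type*} [Group X] [Finite X] {p : ℕ} [hp : Fact p.Prime]

/-- two Sylow subgroups contained in a subgroup `H` are conjugate by an element of `H` -/
theorem nc_sylow_conj_in (P Q : Sylow p X) (H : Subgroup X)
    (hP : (P : Subgroup X) ≤ H) (hQ : (Q : Subgroup X) ≤ H) :
    ∃ c ∈ H, ∀ x ∈ (Q : Subgroup X), c * x * c⁻¹ ∈ (P : Subgroup X) := by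
  obtain ⟨c, hc⟩ := MulAction.exists_smul_eq H (Q.subtype hQ) (P.subtype hP)
  rw [Sylow.smul_subtype] at hc
  have h2 : (c • Q : Sylow p X) = P := Sylow.subtype_injective hc
  refine ⟨c, c.2, fun x hx => ?_⟩
  rw [← h2]
  have h3 : ((c • Q : Sylow p X) : Subgroup X) = MulAut.conj (c : X) • (Q : Subgroup X) := by
    rw [Subgroup.smul_def]
    exact Sylow.coe_subgroup_smul
  show (c : X) * x * (c : X)⁻¹ ∈ ((c • Q : Sylow p X) : Subgroup X)
  rw [h3, mem_conj_smul_iff]
  convert hx using 1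
  group

/-- fusion in `P` by elements of `M` is trivial modulo `P'` when `N_M(P) = P` and a normal
subgroup `D` meets `P` in `P'` -/
theorem nc_fusion (P : Sylow p X) (M D : Subgroup X) [hD : D.Normal]
    (hPM : (P : Subgroup X) ≤ M)
    (hPD : ⁅(P : Subgroup X), (P : Subgroup X)⁆ ≤ D)
    (hDP : D ⊓ (P : Subgroup X) ≤ ⁅(P : Subgroup X), (P : Subgroup X)⁆)
    (hself : M ⊓ Subgroup.normalizer ((P : Subgroup X) : Set X) ≤ (P : Subgroup X))
    (x u : X) (hx : x ∈ (P : Subgroup X)) (hu : u ∈ M)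
    (hy : u * x * u⁻¹ ∈ (P : Subgroup X)) :
    x⁻¹ * (u * x * u⁻¹) ∈ ⁅(P : Subgroup X), (P : Subgroup X)⁆ := by
  obtain ⟨y, hydef⟩ : ∃ y, y = u * x * u⁻¹ := ⟨_, rfl⟩
  rw [← hydef] at hy ⊢
  obtain ⟨C, hCdef⟩ : ∃ C : Subgroup X,
      C = (Subgroup.centralizer {(QuotientGroup.mk' D y)}).comap (QuotientGroup.mk' D) :=
    ⟨_, rfl⟩
  have hmemC : ∀ c : X, c ∈ C ↔ (y * c)⁻¹ * (c * y) ∈ D := by
    intro c
    rw [hCdef, Subgroup.mem_comap, Subgroup.mem_centralizer_iff]
    simp only [Set.mem_singleton_iff, forall_eq]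
    rw [← map_mul, ← map_mul, QuotientGroup.mk'_apply, QuotientGroup.mk'_apply,
      QuotientGroup.eq]
  have hPC : (P : Subgroup X) ≤ C ⊓ M := by
    intro c hc
    refine Subgroup.mem_inf.mpr ⟨(hmemC c).mpr ?_, hPM hc⟩
    apply hPD
    have e : (y * c)⁻¹ * (c * y) = ⁅c⁻¹, y⁻¹⁆ := by
      rw [commutatorElement_def]
      group
    rw [e]
    exact Subgroup.commutator_mem_commutator (inv_mem hc) (inv_mem hy)
  have hQC : ((u • P : Sylow p X) : Subgroup X) ≤ C ⊓ M := by
    intro c hc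
    rw [Sylow.coe_subgroup_smul, mem_conj_smul_iff] at hc
    refine Subgroup.mem_inf.mpr ⟨(hmemC c).mpr ?_, ?_⟩
    · have h1 : ⁅(u⁻¹ * c * u)⁻¹, x⁻¹⁆ ∈ D :=
        hPD (Subgroup.commutator_mem_commutator (inv_mem hc) (inv_mem hx))
      have h2 := hD.conj_mem _ h1 u
      convert h2 using 1
      rw [hydef, commutatorElement_def]
      group
    · have e : c = u * (u⁻¹ * c * u) * u⁻¹ := by group
      rw [e]
      exact mul_mem (mul_mem hu (hPM hc)) (inv_mem hu)
  obtain ⟨c, hcCM, hc⟩ := nc_sylow_conj_in P (u • P) (C ⊓ M) hPC hQC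
  have hcC := (Subgroup.mem_inf.mp hcCM).1
  have hcM := (Subgroup.mem_inf.mp hcCM).2
  have hwN : c * u ∈ Subgroup.normalizer ((P : Subgroup X) : Set X) := by
    apply Subgroup.mem_normalizer_fintype
    intro n hn
    have hn' : n ∈ (P : Subgroup X) := hn
    have h1 : u * n * u⁻¹ ∈ ((u • P : Sylow p X) : Subgroup X) := by
      rw [Sylow.coe_subgroup_smul, mem_conj_smul_iff]
      have e : u⁻¹ * (u * n * u⁻¹) * u = n := by group
      rw [e]
      exact hn'
    have h2 := hc _ h1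
    have e : c * u * n * (c * u)⁻¹ = c * (u * n * u⁻¹) * c⁻¹ := by group
    rw [e]
    exact h2
  have hwP : c * u ∈ (P : Subgroup X) :=
    hself (Subgroup.mem_inf.mpr ⟨mul_mem hcM hu, hwN⟩)
  have h3 : ⁅x⁻¹, c * u⁆ ∈ ⁅(P : Subgroup X), (P : Subgroup X)⁆ :=
    Subgroup.commutator_mem_commutator (inv_mem hx) hwP
  have h4 : (y * c⁻¹)⁻¹ * (c⁻¹ * y) ∈ D := (hmemC c⁻¹).mp (inv_mem hcC)
  have h5 : (y * c⁻¹)⁻¹ * (c⁻¹ * y) ∈ (P : Subgroup X) := by
    have e : (y * c⁻¹)⁻¹ * (c⁻¹ * y) = (⁅x⁻¹, c * u⁆)⁻¹ * (x⁻¹ * y) := by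
      rw [hydef, commutatorElement_def]
      group
    rw [e]
    exact mul_mem (inv_mem (Subgroup.commutator_le_self _ h3)) (mul_mem (inv_mem hx) hy)
  have e : x⁻¹ * y = ⁅x⁻¹, c * u⁆ * ((y * c⁻¹)⁻¹ * (c⁻¹ * y)) := by
    rw [hydef, commutatorElement_def]
    group
  rw [e]
  exact mul_mem h3 (hDP (Subgroup.mem_inf.mpr ⟨h4, h5⟩))

/-- a normal subgroup `M` containing the Sylow subgroup `P`, with `M`-fusion in `P` trivial
modulo `P'`, has a normal `p`-complement `K`, normal in the whole group -/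
theorem nc_complement (P : Sylow p X) (M : Subgroup X) [hM : M.Normal]
    (hPM : (P : Subgroup X) ≤ M)
    (hfus : ∀ x ∈ (P : Subgroup X), ∀ u ∈ M, u * x * u⁻¹ ∈ (P : Subgroup X) →
      x⁻¹ * (u * x * u⁻¹) ∈ ⁅(P : Subgroup X), (P : Subgroup X)⁆) :
    ∃ K : Subgroup X, K.Normal ∧ K ≤ M ∧ K ⊓ (P : Subgroup X) = ⊥ ∧
      M ≤ K ⊔ (P : Subgroup X) := by
  have hpp : p.Prime := hp.out
  obtain ⟨K, hKdef⟩ : ∃ K : Subgroup X, K = (Cfsg.pResidual p M).map M.subtype := ⟨_, rfl⟩
  have hKM : K ≤ M := hKdef ▸ Subgroup.map_subtype_le _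
  have hKn : K.Normal := by
    constructor
    intro k hk g
    rw [hKdef] at hk ⊢
    obtain ⟨n, hn, rfl⟩ := hk
    exact ⟨MulAut.conjNormal g n,
      Cfsg.Agent.S0081.pResidual_map_mulEquiv p (MulAut.conjNormal g) hn, rfl⟩
  have hKgen : K ≤ Subgroup.closure {g : X | g ∈ K ∧ (orderOf g).Coprime p} := by
    conv_lhs => rw [hKdef]
    unfold Cfsg.pResidual
    rw [MonoidHom.map_closure, Subgroup.closure_le]
    rintro _ ⟨n, hn, rfl⟩
    apply Subgroup.subset_closure
    refine ⟨?_, ?_⟩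
    · rw [hKdef]
      exact Subgroup.mem_map_of_mem _ (Subgroup.subset_closure hn)
    · show Nat.Coprime (orderOf (M.subtype n)) p
      rw [Subgroup.coe_subtype, Subgroup.orderOf_coe]
      exact hn
  obtain ⟨PM, hPMdef⟩ : ∃ PM : Sylow p M, PM = P.subtype hPM := ⟨_, rfl⟩
  have hPMmem : ∀ m : M, m ∈ (PM : Subgroup M) ↔ (m : X) ∈ (P : Subgroup X) := by
    intro m
    rw [hPMdef, Sylow.coe_subtype, Subgroup.mem_subgroupOf]
  have hfoc : ∀ m : M, m ∈ Subgroup.focalSubgroup (PM : Subgroup M) →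
      (m : X) ∈ ⁅(P : Subgroup X), (P : Subgroup X)⁆ := by
    intro m hm
    have hle : Subgroup.focalSubgroup (PM : Subgroup M) ≤
        (⁅(P : Subgroup X), (P : Subgroup X)⁆).comap M.subtype := by
      rw [Subgroup.focalSubgroup_def, Subgroup.closure_le]
      rintro g ⟨hgP, x, hxP, u, rfl⟩
      rw [SetLike.mem_coe, Subgroup.mem_comap]
      have hgP' := (hPMmem _).mp hgP
      have hxP' := (hPMmem _).mp hxP
      have e1 : ((⁅x, u⁆ : M) : X) = ⁅(x : X), (u : X)⁆ := by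
        simp [commutatorElement_def]
      have h1 : (u : X) * (x : X)⁻¹ * (u : X)⁻¹ ∈ (P : Subgroup X) := by
        have e : (u : X) * (x : X)⁻¹ * (u : X)⁻¹ = (x : X)⁻¹ * ⁅(x : X), (u : X)⁆ := by
          rw [commutatorElement_def]
          group
        rw [e, ← e1]
        exact mul_mem (inv_mem hxP') hgP'
      have h2 := hfus (x : X)⁻¹ (inv_mem hxP') (u : X) u.2 h1
      rw [Subgroup.coe_subtype, e1]
      convert h2 using 1
      rw [commutatorElement_def]
      group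
    exact hle hm
  have : Group.IsNilpotent (P : Subgroup X) := P.isPGroup'.isNilpotent
  have hKP : K ⊓ (P : Subgroup X) ≤ (frattini P).map (P : Subgroup X).subtype := by
    intro k hk
    obtain ⟨hkK, hkP⟩ := Subgroup.mem_inf.mp hk
    rw [hKdef] at hkK
    obtain ⟨m, hm, rfl⟩ := hkK
    have hker : Cfsg.pResidual p M ≤ (Subgroup.transferFocal (PM : Subgroup M)).ker := by
      unfold Cfsg.pResidual
      rw [Subgroup.closure_le]
      intro g hg
      rw [SetLike.mem_coe, MonoidHom.mem_ker]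
      have hQ : IsPGroup p ((PM : Subgroup M) ⧸ (PM : Subgroup M).focalSubgroupOf) :=
        PM.2.to_quotient _
      obtain ⟨j, hj⟩ := hQ (Subgroup.transferFocal (PM : Subgroup M) g)
      have h1 : orderOf (Subgroup.transferFocal (PM : Subgroup M) g) ∣ orderOf g :=
        orderOf_map_dvd _ g
      have h2 : orderOf (Subgroup.transferFocal (PM : Subgroup M) g) ∣ p ^ j :=
        orderOf_dvd_of_pow_eq_one hj
      have hcop : Nat.Coprime (orderOf g) (p ^ j) := Nat.Coprime.pow_right j hg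
      have h3 : orderOf (Subgroup.transferFocal (PM : Subgroup M) g) = 1 :=
        Nat.eq_one_of_dvd_coprimes hcop h1 h2
      exact orderOf_eq_one_iff.mp h3
    have hm2 : m ∈ (Subgroup.transferFocal (PM : Subgroup M)).ker ⊓ (PM : Subgroup M) :=
      Subgroup.mem_inf.mpr ⟨hker hm, (hPMmem m).mpr hkP⟩
    rw [Subgroup.ker_transferFocal_inf_eq_focalSubgroup] at hm2
    have hm3 := hfoc m hm2
    rw [← Subgroup.map_subtype_commutator] at hm3
    obtain ⟨z, hz, hzeq⟩ := hm3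
    exact ⟨z, Cfsg.Agent.Lib.Helper18.commutator_le_frattini_of_isNilpotent hz, hzeq⟩
  have hbot := tate_aux P K hKgen hKP
  have hcopK : (Nat.card K).Coprime p := by
    rw [Nat.coprime_comm, Nat.Prime.coprime_iff_not_dvd hpp]
    intro hdvd
    obtain ⟨k, hk⟩ := exists_prime_orderOf_dvd_card' p hdvd
    have hzp : IsPGroup p (Subgroup.zpowers (k : X)) := by
      apply IsPGroup.of_card (n := 1)
      rw [Nat.card_zpowers, pow_one, Subgroup.orderOf_coe]
      exact hk
    obtain ⟨Q, hQ⟩ := hzp.exists_le_sylow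
    obtain ⟨g, hg⟩ := MulAction.exists_smul_eq X Q P
    have h1 : g * (k : X) * g⁻¹ ∈ (P : Subgroup X) := by
      rw [← hg, Sylow.coe_subgroup_smul, mem_conj_smul_iff]
      apply hQ
      convert Subgroup.mem_zpowers (k : X) using 1
      group
    have h2 : g * (k : X) * g⁻¹ ∈ K := hKn.conj_mem _ k.2 g
    have h3 : g * (k : X) * g⁻¹ ∈ K ⊓ (P : Subgroup X) := Subgroup.mem_inf.mpr ⟨h2, h1⟩
    rw [hbot, Subgroup.mem_bot] at h3
    have h4 : (k : X) = 1 := by
      have e : (k : X) = g⁻¹ * (g * (k : X) * g⁻¹) * g := by group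
      rw [e, h3]
      group
    have h5 : k = 1 := Subtype.ext h4
    rw [h5, orderOf_one] at hk
    exact hpp.one_lt.ne' hk.symm
  have hcopM : (Nat.card (Cfsg.pResidual p M)).Coprime p := by
    rw [← Subgroup.card_map_of_injective M.subtype_injective, ← hKdef]
    exact hcopK
  have hnorm := pResidual_normal (G := M) p
  obtain ⟨j, hj⟩ := IsPGroup.iff_card.mp (isPGroup_quotient_pResidual (G := M) p)
  have hcompl := Cfsg.Agent.S0072.isComplement'_sylow_of_coprime _ hcopM (j := j) hj PM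
  have hsup : Cfsg.pResidual p M ⊔ (PM : Subgroup M) = ⊤ := hcompl.sup_eq_top
  refine ⟨K, hKn, hKM, hbot, ?_⟩
  intro m hm
  have h1 : (⟨m, hm⟩ : M) ∈ Cfsg.pResidual p M ⊔ (PM : Subgroup M) := by
    rw [hsup]
    exact Subgroup.mem_top _
  have h2 : M.subtype ⟨m, hm⟩ ∈ (Cfsg.pResidual p M ⊔ (PM : Subgroup M)).map M.subtype :=
    Subgroup.mem_map_of_mem _ h1
  rw [Subgroup.map_sup, ← hKdef] at h2
  have h3 : (PM : Subgroup M).map M.subtype ≤ (P : Subgroup X) := by
    rintro _ ⟨z, hz, rfl⟩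
    exact (hPMmem z).mp hz
  exact (sup_le_sup_left h3 K) h2

end nc1

end Cfsg.Agent.Lib.Helper25
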