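import Mathlib
import Cfsg.Agent.Lib.Helper25.PrincipalCover
import Cfsg.Agent.Lib.Helper25.Defect0
import Cfsg.Agent.Lib.Helper25.SecondSum

/-!
# The sum of the squares of the degrees in the principal block, for a normal subgroup
-/

set_option autoImplicit false

namespace Cfsg.Agent.Lib.Helper25

open Cfsg Cfsg.Agent.Lib.Helper2 Cfsg.Agent.Lib.Helper8

open scoped ComplexConjugate

section bounds

variable {G : Type*} [Group G] [Fintype G] {p : ℕ} {M : Ideal AlgInt}

theorem finsum_mem_eq_sum_ite {α : Type*} [Fintype α] (s : Set α) [DecidablePred (· ∈ s)]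
    (f : α → ℕ) : ∑ᶠ a ∈ s, f a = ∑ a, if a ∈ s then f a else 0 := by
  rw [finsum_mem_eq_sum_indicator]
  apply Finset.sum_congr rfl
  intro a _
  by_cases h : a ∈ s
  · rw [Set.indicator_of_mem h, if_pos h]
  · rw [Set.indicator_of_notMem h, if_neg h]

theorem colFun_one [DecidableEq G] (g : G) :
    colFun (1 : G) g = if g = 1 then (Nat.card G : ℂ) else 0 := by
  rw [colFun_eq_sum_ite]
  by_cases hg : g = 1
  · rw [if_pos hg, hg]
    simp [Nat.card_eq_fintype_card]
  · rw [if_neg hg]
    apply Finset.sum_eq_zero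
    intro x _
    rw [if_neg]
    intro h
    exact hg (conj_eq_one_iff.mp h)

/-- **`λ(H) ≤ λ(G) ≤ [G : H] λ(H)`** for the sums of the squares of the degrees in the
principal blocks of a group and a normal subgroup -/
theorem principal_sum_bounds [Fact p.Prime] (hM : IsPModular p M) (H : Subgroup G)
    [hH : H.Normal] [Fintype H] :
    (∑ᶠ θ ∈ principalBlock M H, charDegree (θ : H → ℂ) ^ 2)
        ≤ (∑ᶠ χ ∈ principalBlock M G, charDegree (χ : G → ℂ) ^ 2) ∧
      (∑ᶠ χ ∈ principalBlock M G, charDegree (χ : G → ℂ) ^ 2)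
        ≤ H.index * ∑ᶠ θ ∈ principalBlock M H, charDegree (θ : H → ℂ) ^ 2 := by
  classical
  have : Fintype (IrrCharacter G) := Fintype.ofFinite _
  have : Fintype (IrrCharacter H) := Fintype.ofFinite _
  have hdG : ∀ χ : IrrCharacter G, (χ : G → ℂ) 1 = (charDegree (χ : G → ℂ) : ℂ) := by
    intro χ
    obtain ⟨d, hd1, -, -, hcd⟩ := irr_degree χ
    rw [hd1, hcd]
  have hdH : ∀ θ : IrrCharacter H, (θ : H → ℂ) 1 = (charDegree (θ : H → ℂ) : ℂ) := by
    intro θ
    obtain ⟨d, hd1, -, -, hcd⟩ := irr_degree θ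
    rw [hd1, hcd]
  have hmex : ∀ (χ : IrrCharacter G) (θ : IrrCharacter H), ∃ n : ℕ,
      classInner (fun h : H => (χ : G → ℂ) h) (θ : H → ℂ) = (n : ℂ) := fun χ θ =>
    classInner_isCharacter_nat
      (Cfsg.Agent.Lib.Helper2.IsCharacter.restrict (isCharacter_of_isIrrCharacter χ.2) H)
      (isCharacter_of_isIrrCharacter θ.2)
  choose m hm using hmex
  -- the degree of `χ` in terms of its constituents
  have hR1 : ∀ χ : IrrCharacter G, charDegree (χ : G → ℂ)
      = ∑ θ : IrrCharacter H, m χ θ * charDegree (θ : H → ℂ) := by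
    intro χ
    have hcf : IsClassFunction H (fun h : H => (χ : G → ℂ) h) :=
      isClassFunction_of_isCharacter
        (Cfsg.Agent.Lib.Helper2.IsCharacter.restrict (isCharacter_of_isIrrCharacter χ.2) H)
    have hexp := congrFun (class_fun_expand _ hcf) 1
    rw [Finset.sum_apply] at hexp
    apply Nat.cast_injective (R := ℂ)
    rw [← hdG χ]
    push_cast
    have e0 : (χ : G → ℂ) 1 = (fun h : H => (χ : G → ℂ) h) 1 := rfl
    rw [e0]
    refine hexp.trans ?_
    apply Finset.sum_congr rfl
    intro θ _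
    rw [Pi.smul_apply, smul_eq_mul, hm χ θ, hdH θ]
  -- the degrees of the characters over `θ`
  have hR2 : ∀ θ : IrrCharacter H, ∑ χ : IrrCharacter G, m χ θ * charDegree (χ : G → ℂ)
      = H.index * charDegree (θ : H → ℂ) := by
    intro θ
    apply Nat.cast_injective (R := ℂ)
    push_cast
    have e1 : ∀ χ : IrrCharacter G, (m χ θ : ℂ) * (charDegree (χ : G → ℂ) : ℂ)
        = (Nat.card H : ℂ)⁻¹ * ∑ h : H, conj ((θ : H → ℂ) h)
          * ((χ : G → ℂ) h * conj ((χ : G → ℂ) 1)) := by
      intro χ
      rw [← hm χ θ, classInner_def, hdG χ, Complex.conj_natCast, mul_assoc, Finset.sum_mul]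
      congr 1
      apply Finset.sum_congr rfl
      intro h _
      ring
    rw [Finset.sum_congr rfl (fun χ _ => e1 χ), ← Finset.mul_sum, Finset.sum_comm]
    have e2 : ∀ h : H, ∑ χ : IrrCharacter G, conj ((θ : H → ℂ) h)
          * ((χ : G → ℂ) h * conj ((χ : G → ℂ) 1))
        = conj ((θ : H → ℂ) h) * (if (h : G) = 1 then (Nat.card G : ℂ) else 0) := by
      intro h
      rw [← Finset.mul_sum, column_orthogonality (h : G) 1, colFun_one]
    rw [Finset.sum_congr rfl (fun h _ => e2 h)]
    have e3 : ∑ h : H, conj ((θ : H → ℂ) h) * (if (h : G) = 1 then (Nat.card G : ℂ) else 0)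
        = conj ((θ : H → ℂ) 1) * (Nat.card G : ℂ) := by
      rw [Finset.sum_eq_single (1 : H)]
      · rw [if_pos (by rfl)]
      · intro h _ hne
        rw [if_neg, mul_zero]
        intro h1
        exact hne (Subtype.ext h1)
      · intro h
        exact absurd (Finset.mem_univ _) h
    rw [e3, hdH θ, Complex.conj_natCast]
    have hidx : (Nat.card H : ℂ) * (H.index : ℂ) = (Nat.card G : ℂ) := by
      exact_mod_cast H.card_mul_index
    have hHne := card_ne_zero_complex H
    rw [← hidx]
    field_simp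
  obtain ⟨dG, hdGdef⟩ : ∃ dG : IrrCharacter G → ℕ,
      dG = fun χ : IrrCharacter G => charDegree (χ : G → ℂ) :=
    ⟨_, rfl⟩
  obtain ⟨dH, hdHdef⟩ : ∃ dH : IrrCharacter H → ℕ,
      dH = fun θ : IrrCharacter H => charDegree (θ : H → ℂ) :=
    ⟨_, rfl⟩
  have hR1' : ∀ χ : IrrCharacter G, dG χ = ∑ θ : IrrCharacter H, m χ θ * dH θ := by
    intro χ
    rw [hdGdef, hdHdef]
    exact hR1 χ
  have hR2' : ∀ θ : IrrCharacter H, ∑ χ : IrrCharacter G, m χ θ * dG χ = H.index * dH θ := by
    intro θ
    rw [hdGdef, hdHdef]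
    exact hR2 θ
  -- constituents
  have hi : ∀ χ : IrrCharacter G, χ ∈ principalBlock M G → ∀ θ : IrrCharacter H,
      θ ∉ principalBlock M H → m χ θ = 0 := by
    intro χ hχ θ hθ
    by_contra hne
    apply hθ
    apply principal_constituent hM H χ hχ θ
    rw [hm χ θ]
    exact_mod_cast hne
  have hii : ∀ θ : IrrCharacter H, θ ∈ principalBlock M H →
      ∃ χ : IrrCharacter G, χ ∈ principalBlock M G ∧ m χ θ ≠ 0 := by
    intro θ hθ
    obtain ⟨χ, hχ, hne⟩ := exists_principal_over hM H θ hθ
    refine ⟨χ, hχ, ?_⟩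
    intro h0
    apply hne
    rw [hm χ θ, h0, Nat.cast_zero]
  have hkey : ∀ χ : IrrCharacter G, χ ∈ principalBlock M G →
      dG χ = ∑ θ : IrrCharacter H, if θ ∈ principalBlock M H then m χ θ * dH θ else 0 := by
    intro χ hχ
    rw [hR1' χ]
    apply Finset.sum_congr rfl
    intro θ _
    by_cases hθ : θ ∈ principalBlock M H
    · rw [if_pos hθ]
    · rw [if_neg hθ, hi χ hχ θ hθ, zero_mul]
  -- the main identity
  have hlamG : (∑ χ : IrrCharacter G, if χ ∈ principalBlock M G then dG χ ^ 2 else 0)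
      = ∑ θ : IrrCharacter H, if θ ∈ principalBlock M H then
          dH θ * (∑ χ : IrrCharacter G, if χ ∈ principalBlock M G then m χ θ * dG χ else 0)
        else 0 := by
    have e1 : ∀ χ : IrrCharacter G, (if χ ∈ principalBlock M G then dG χ ^ 2 else 0)
        = ∑ θ : IrrCharacter H, if θ ∈ principalBlock M H then
          dH θ * (if χ ∈ principalBlock M G then m χ θ * dG χ else 0) else 0 := by
      intro χ
      by_cases hχ : χ ∈ principalBlock M G
      · simp only [if_pos hχ]
        calc dG χ ^ 2 = (∑ θ : IrrCharacter H,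
              if θ ∈ principalBlock M H then m χ θ * dH θ else 0) * dG χ := by
              rw [← hkey χ hχ, pow_two]
          _ = ∑ θ : IrrCharacter H,
              if θ ∈ principalBlock M H then dH θ * (m χ θ * dG χ) else 0 := by
              rw [Finset.sum_mul]
              apply Finset.sum_congr rfl
              intro θ _
              by_cases hθ : θ ∈ principalBlock M H
              · rw [if_pos hθ, if_pos hθ]
                ring
              · rw [if_neg hθ, if_neg hθ, zero_mul]
      · simp only [if_neg hχ, mul_zero, ite_self, Finset.sum_const_zero]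
    rw [Finset.sum_congr rfl (fun χ _ => e1 χ), Finset.sum_comm]
    apply Finset.sum_congr rfl
    intro θ _
    by_cases hθ : θ ∈ principalBlock M H
    · simp only [if_pos hθ]
      rw [Finset.mul_sum]
    · simp only [if_neg hθ, Finset.sum_const_zero]
  rw [finsum_mem_eq_sum_ite, finsum_mem_eq_sum_ite]
  have hGG : (∑ χ : IrrCharacter G, if χ ∈ principalBlock M G
      then charDegree (χ : G → ℂ) ^ 2 else 0)
      = ∑ χ : IrrCharacter G, if χ ∈ principalBlock M G then dG χ ^ 2 else 0 := by
    rw [hdGdef]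
  have hHH : (∑ θ : IrrCharacter H, if θ ∈ principalBlock M H
      then charDegree (θ : H → ℂ) ^ 2 else 0)
      = ∑ θ : IrrCharacter H, if θ ∈ principalBlock M H then dH θ ^ 2 else 0 := by
    rw [hdHdef]
  rw [hGG, hHH, hlamG]
  constructor
  · apply Finset.sum_le_sum
    intro θ _
    by_cases hθ : θ ∈ principalBlock M H
    · rw [if_pos hθ, if_pos hθ, pow_two]
      apply Nat.mul_le_mul_left
      obtain ⟨χ₁, hχ₁, hne⟩ := hii θ hθ
      have h1 : m χ₁ θ * dG χ₁ ≤ ∑ χ : IrrCharacter G,
          if χ ∈ principalBlock M G then m χ θ * dG χ else 0 := by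
        have h2 := Finset.single_le_sum (f := fun χ : IrrCharacter G =>
          if χ ∈ principalBlock M G then m χ θ * dG χ else 0) (fun χ _ => Nat.zero_le _)
          (Finset.mem_univ χ₁)
        simp only [if_pos hχ₁] at h2
        exact h2
      have h3 : m χ₁ θ * dH θ ≤ dG χ₁ := by
        rw [hR1' χ₁]
        exact Finset.single_le_sum (f := fun θ' : IrrCharacter H => m χ₁ θ' * dH θ')
          (fun θ' _ => Nat.zero_le _) (Finset.mem_univ θ)
      have h4 : 1 ≤ m χ₁ θ := Nat.one_le_iff_ne_zero.mpr hne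
      calc dH θ = 1 * dH θ := (one_mul _).symm
        _ ≤ m χ₁ θ * dH θ := Nat.mul_le_mul_right _ h4
        _ ≤ dG χ₁ := h3
        _ = 1 * dG χ₁ := (one_mul _).symm
        _ ≤ m χ₁ θ * dG χ₁ := Nat.mul_le_mul_right _ h4
        _ ≤ _ := h1
    · rw [if_neg hθ, if_neg hθ]
  · rw [Finset.mul_sum]
    apply Finset.sum_le_sum
    intro θ _
    by_cases hθ : θ ∈ principalBlock M H
    · rw [if_pos hθ, if_pos hθ]
      have h1 : (∑ χ : IrrCharacter G, if χ ∈ principalBlock M G then m χ θ * dG χ else 0)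
          ≤ H.index * dH θ := by
        rw [← hR2' θ]
        apply Finset.sum_le_sum
        intro χ _
        split_ifs
        · exact le_refl _
        · exact Nat.zero_le _
      calc dH θ * (∑ χ : IrrCharacter G, if χ ∈ principalBlock M G then m χ θ * dG χ else 0)
          ≤ dH θ * (H.index * dH θ) := Nat.mul_le_mul_left _ h1
        _ = H.index * dH θ ^ 2 := by ring
    · rw [if_neg hθ, if_neg hθ, mul_zero]

end bounds

end Cfsg.Agent.Lib.Helper25
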