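import Mathlib
import Cfsg.Agent.Lib.Helper15.SpW

set_option autoImplicit false

namespace Cfsg.Agent.Lib.Helper25

open Matrix

theorem tp_prod (q : ℕ) (hq1 : 1 < q) (hq : ¬ 2 ∣ q) (n : ℕ) :
    padicValNat 2 (∏ i : Fin n, (q ^ n - q ^ (i : ℕ)))
      = ∑ j ∈ Finset.range n, padicValNat 2 (q ^ (j + 1) - 1) := by
  have hne : ∀ i ∈ Finset.range n, q ^ n - q ^ i ≠ 0 := by
    intro i hi
    have hi' := Finset.mem_range.mp hi
    have h : q ^ i < q ^ n := Nat.pow_lt_pow_right hq1 hi'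
    omega
  rw [← Finset.prod_range (fun i => q ^ n - q ^ i), ← Nat.factorization_def _ Nat.prime_two,
    Nat.factorization_prod hne, Finsupp.finsetSum_apply]
  have h1 : ∑ i ∈ Finset.range n, (q ^ n - q ^ i).factorization 2
      = ∑ j ∈ Finset.range n, (q ^ n - q ^ (n - 1 - j)).factorization 2 :=
    (Finset.sum_range_reflect (fun i => (q ^ n - q ^ i).factorization 2) n).symm
  rw [h1]
  refine Finset.sum_congr rfl (fun j hj => ?_)
  have hj' := Finset.mem_range.mp hj
  obtain ⟨k, hk⟩ : ∃ k, n = k + (j + 1) := ⟨n - 1 - j, by omega⟩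
  have hk' : n - 1 - j = k := by omega
  rw [hk', Nat.factorization_def _ Nat.prime_two, hk]
  have h2 : q ^ (k + (j + 1)) - q ^ k = q ^ k * (q ^ (j + 1) - 1) := by
    rw [pow_add, Nat.mul_sub, mul_one]
  have h3 : q ^ k ≠ 0 := pow_ne_zero _ (by omega)
  have h4 : q ^ (j + 1) - 1 ≠ 0 := by
    have h : q ^ 0 < q ^ (j + 1) := Nat.pow_lt_pow_right hq1 (by omega)
    rw [pow_zero] at h
    omega
  have h5 : padicValNat 2 (q ^ k) = 0 :=
    padicValNat.eq_zero_of_not_dvd (fun h => hq (Nat.Prime.dvd_of_dvd_pow Nat.prime_two h))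
  rw [h2, padicValNat.mul h3 h4, h5, zero_add]

theorem tp_sum (q : ℕ) (hq1 : 1 < q) (hq : ¬ 2 ∣ q) (m : ℕ) :
    ∑ j ∈ Finset.range (2 * m + 1), padicValNat 2 (q ^ (j + 1) - 1)
      = (m + 1) * padicValNat 2 (q - 1) + m * padicValNat 2 (q ^ 2 - 1)
        + padicValNat 2 m.factorial := by
  induction m with
  | zero => simp
  | succ m ih =>
    have e : 2 * (m + 1) + 1 = (2 * m + 1) + 1 + 1 := by ring
    rw [e, Finset.sum_range_succ, Finset.sum_range_succ, ih]
    have h1 : padicValNat 2 (q ^ (2 * m + 1 + 1) - 1)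
        = padicValNat 2 (q ^ 2 - 1) + padicValNat 2 (m + 1) := by
      have h := Cfsg.Agent.Lib.Helper15.SpW.val_pow_sub q (m + 1) hq1 hq (Nat.succ_ne_zero m)
      rw [show 2 * m + 1 + 1 = 2 * (m + 1) by ring]
      exact h
    have h2 : padicValNat 2 (q ^ (2 * m + 1 + 1 + 1) - 1) = padicValNat 2 (q - 1) :=
      Cfsg.Agent.Lib.Helper15.SylowGL.padicVal_pow_sub_one' (r := 2) (by omega) (by omega)
        (by omega)
    rw [h1, h2, Nat.factorial_succ, padicValNat.mul (Nat.succ_ne_zero m) (Nat.factorial_ne_zero m)]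
    ring

/-- the 2-part of `SL_{2m+1}(q)` is that of `GL_2(q) wr S_m`, for odd `q` -/
theorem card_sl_odd_two_part {F : Type*} [Field F] [Fintype F] (hF : Odd (Fintype.card F))
    (m : ℕ) :
    (Nat.card (Matrix.SpecialLinearGroup (Fin (2 * m + 1)) F)).factorization 2
      = m * (Nat.card (Matrix.GeneralLinearGroup (Fin 2) F)).factorization 2
        + (m.factorial).factorization 2 := by
  have hq1 : 1 < Fintype.card F := Fintype.one_lt_card
  have hq : ¬ 2 ∣ Fintype.card F := hF.not_two_dvd_nat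
  have hGL2 : Nat.card (GL (Fin 2) F)
      = (Fintype.card F ^ 2 - 1) * (Fintype.card F * (Fintype.card F - 1)) := by
    rw [Matrix.card_GL_field, Fin.prod_univ_two]
    simp only [Fin.val_zero, Fin.val_one, pow_zero, pow_one]
    congr 1
    rw [Nat.mul_sub, mul_one, sq]
  have hSL := Cfsg.Agent.Lib.Helper15.card_SL_mul (F := F) (2 * m + 1) (by omega)
  rw [Matrix.card_GL_field] at hSL
  obtain ⟨q, hqdef⟩ : ∃ q, q = Fintype.card F := ⟨_, rfl⟩
  rw [← hqdef] at hq1 hq hGL2 hSL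
  have hq0 : q ≠ 0 := by omega
  have hc : q ^ 2 - 1 ≠ 0 := by
    have h : q ^ 0 < q ^ 2 := Nat.pow_lt_pow_right hq1 (by omega)
    rw [pow_zero] at h
    omega
  have hq1' : q - 1 ≠ 0 := by omega
  have hSL0 : Nat.card (Matrix.SpecialLinearGroup (Fin (2 * m + 1)) F) ≠ 0 := Nat.card_pos.ne'
  have h1 := congrArg (padicValNat 2) hSL
  rw [padicValNat.mul hSL0 hq1', tp_prod q hq1 hq, tp_sum q hq1 hq] at h1
  rw [Nat.factorization_def _ Nat.prime_two, Nat.factorization_def _ Nat.prime_two,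
    Nat.factorization_def _ Nat.prime_two, hGL2,
    padicValNat.mul hc (mul_ne_zero hq0 hq1'), padicValNat.mul hq0 hq1',
    padicValNat.eq_zero_of_not_dvd hq]
  have e1 : (m + 1) * padicValNat 2 (q - 1) = m * padicValNat 2 (q - 1) + padicValNat 2 (q - 1) := by
    ring
  have e2 : m * (padicValNat 2 (q ^ 2 - 1) + (0 + padicValNat 2 (q - 1)))
      = m * padicValNat 2 (q ^ 2 - 1) + m * padicValNat 2 (q - 1) := by ring
  rw [e1] at h1
  rw [e2]
  linarith

end Cfsg.Agent.Lib.Helper25
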