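import Mathlib
import Cfsg.Agent.Lib.Helper2.LinExt

/-!
# Transfer into `P/P'` from `N P` and squares

For a normal subgroup `N`, a `2`-subgroup `P` of odd index with `N P = L`, if squares of `P`
lie in `(P ∩ N) P'`, squares of `P ∩ N` lie in `P'`, and every element of `N` has odd order
modulo `N'`, then `P/P'` is elementary abelian.
-/

namespace Cfsg.Agent.Lib.Helper25

open Cfsg Cfsg.Agent.Lib.Helper2

/-- naturality of the transfer in its target -/
theorem transfer_comp_target {G : Type*} [Group G] {H : Subgroup G} [H.FiniteIndex]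
    {A B : Type*} [CommGroup A] [CommGroup B] (ϕ : H →* A) (π : A →* B) (g : G) :
    MonoidHom.transfer (π.comp ϕ) g = π (MonoidHom.transfer ϕ g) := by
  classical
  let := H.fintypeQuotientOfFiniteIndex
  rw [MonoidHom.transfer_eq_prod_quotient_orbitRel_zpowers_quot,
    MonoidHom.transfer_eq_prod_quotient_orbitRel_zpowers_quot, map_prod]
  rfl

/-- the transfer `V : L → P/P'` of an element `x` of `P`, for `L = N P`, is `x ^ [L:P]` times
the image of an element of `P ∩ N` -/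
theorem transfer_eq_pow_mul {L : Type*} [Group L] [Finite L] (N P : Subgroup L) [hN : N.Normal]
    (hsup : N ⊔ P = ⊤) (x : L) (hx : x ∈ P) :
    ∃ q : L, ∃ hq : q ∈ P, q ∈ N ∧
      MonoidHom.transfer (Abelianization.of : P →* Abelianization P) x
        = Abelianization.of (⟨q, hq⟩ : P) * Abelianization.of (⟨x, hx⟩ : P) ^ P.index := by
  classical
  obtain ⟨ϕ, hϕ⟩ : ∃ ϕ : P →* Abelianization P, ϕ = Abelianization.of := ⟨_, rfl⟩
  rw [← hϕ]
  obtain ⟨S, hS⟩ : ∃ S : Subgroup (Abelianization P), S = (N.subgroupOf P).map ϕ := ⟨_, rfl⟩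
  have key : ∀ (k : ℕ) (g₀ : L) (hk : g₀⁻¹ * x ^ k * g₀ ∈ P),
      ((QuotientGroup.mk' S).comp ϕ) ⟨g₀⁻¹ * x ^ k * g₀, hk⟩
        = ((QuotientGroup.mk' S) (ϕ ⟨x, hx⟩)) ^ k := by
    intro k g₀ hk
    have hg₀ : g₀ ∈ ((N ⊔ P : Subgroup L) : Set L) := by
      rw [hsup]
      exact Subgroup.mem_top g₀
    rw [Subgroup.normal_mul, Set.mem_mul] at hg₀
    obtain ⟨n, hn, p', hp', rfl⟩ := hg₀
    have hn' : n ∈ N := hn
    have hp'' : p' ∈ P := hp'
    have hy : x ^ k ∈ P := P.pow_mem hx k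
    have hz : n⁻¹ * x ^ k * n ∈ P := by
      have h1 : n⁻¹ * x ^ k * n = p' * ((n * p')⁻¹ * x ^ k * (n * p')) * p'⁻¹ := by group
      rw [h1]
      exact P.mul_mem (P.mul_mem hp'' hk) (P.inv_mem hp'')
    have hqP : (x ^ k)⁻¹ * (n⁻¹ * x ^ k * n) ∈ P := P.mul_mem (P.inv_mem hy) hz
    have hqN : (x ^ k)⁻¹ * (n⁻¹ * x ^ k * n) ∈ N := by
      have h1 : (x ^ k)⁻¹ * (n⁻¹ * x ^ k * n) = ((x ^ k)⁻¹ * n⁻¹ * (x ^ k)⁻¹⁻¹) * n := by group
      rw [h1]
      exact N.mul_mem (hN.conj_mem _ (N.inv_mem hn') _) hn'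
    have heq : (⟨(n * p')⁻¹ * x ^ k * (n * p'), hk⟩ : P)
        = (⟨p', hp''⟩ : P)⁻¹ * ((⟨x, hx⟩ : P) ^ k
            * ⟨(x ^ k)⁻¹ * (n⁻¹ * x ^ k * n), hqP⟩) * ⟨p', hp''⟩ := by
      apply Subtype.ext
      simp only [Subgroup.coe_mul, Subgroup.coe_inv, Subgroup.coe_pow]
      group
    have hϕeq : ϕ ⟨(n * p')⁻¹ * x ^ k * (n * p'), hk⟩
        = ϕ ⟨x, hx⟩ ^ k * ϕ ⟨(x ^ k)⁻¹ * (n⁻¹ * x ^ k * n), hqP⟩ := by
      rw [heq, map_mul, map_mul, map_inv, mul_comm, mul_inv_cancel_left, map_mul, map_pow]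
    rw [MonoidHom.comp_apply, hϕeq, map_mul, map_pow]
    have hmem : ϕ ⟨(x ^ k)⁻¹ * (n⁻¹ * x ^ k * n), hqP⟩ ∈ S := by
      rw [hS]
      exact Subgroup.mem_map_of_mem ϕ (Subgroup.mem_subgroupOf.mpr hqN)
    have h1 : (QuotientGroup.mk' S) (ϕ ⟨(x ^ k)⁻¹ * (n⁻¹ * x ^ k * n), hqP⟩) = 1 :=
      (QuotientGroup.eq_one_iff _).mpr hmem
    rw [h1, mul_one]
  have h1 := transfer_eq_pow_of_key ((QuotientGroup.mk' S).comp ϕ) x _ key
  rw [transfer_comp_target, ← map_pow] at h1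
  have h2 : (QuotientGroup.mk' S) (MonoidHom.transfer ϕ x * (ϕ ⟨x, hx⟩ ^ P.index)⁻¹) = 1 := by
    rw [map_mul, map_inv, h1, mul_inv_cancel]
  have h3 : MonoidHom.transfer ϕ x * (ϕ ⟨x, hx⟩ ^ P.index)⁻¹ ∈ S :=
    (QuotientGroup.eq_one_iff _).mp h2
  rw [hS] at h3
  obtain ⟨q, hq, hqe⟩ := h3
  refine ⟨(q : L), q.2, Subgroup.mem_subgroupOf.mp hq, ?_⟩
  have h4 : (⟨(q : L), q.2⟩ : P) = q := Subtype.ext rfl
  rw [h4, hqe, inv_mul_cancel_right]

/-- **squares via transfer**: see the file header -/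
theorem sq_mem_commutator_of_transfer {L : Type*} [Group L] [Finite L] (N P : Subgroup L)
    [hN : N.Normal] (hsup : N ⊔ P = ⊤) (hP2 : IsPGroup 2 P) (hidx : Odd P.index)
    (hP : ∀ x ∈ P, x ^ 2 ∈ (P ⊓ N) ⊔ ⁅P, P⁆)
    (hQ : ∀ x ∈ P ⊓ N, x ^ 2 ∈ ⁅P, P⁆)
    (hNodd : ∀ n ∈ N, ∃ k : ℕ, Odd k ∧ n ^ k ∈ ⁅N, N⁆) :
    ∀ x ∈ P, x ^ 2 ∈ ⁅P, P⁆ := by
  classical
  intro x hx
  obtain ⟨ϕ, hϕ⟩ : ∃ ϕ : P →* Abelianization P, ϕ = Abelianization.of := ⟨_, rfl⟩
  obtain ⟨V, hV⟩ : ∃ V : L →* Abelianization P, V = MonoidHom.transfer ϕ := ⟨_, rfl⟩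
  have hker : ∀ y : P, ϕ y = 1 ↔ (y : L) ∈ ⁅P, P⁆ := by
    intro y
    rw [hϕ, ← MonoidHom.mem_ker, Abelianization.ker_of, ← Subgroup.map_subtype_commutator]
    constructor
    · intro h
      exact Subgroup.mem_map_of_mem _ h
    · rintro ⟨z, hz, hzy⟩
      have : z = y := Subtype.ext hzy
      rwa [← this]
  have hA2 : ∀ a : Abelianization P, ∃ j : ℕ, a ^ 2 ^ j = 1 := by
    intro a
    obtain ⟨y, rfl⟩ := QuotientGroup.mk_surjective a
    obtain ⟨j, hj⟩ := hP2 y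
    refine ⟨j, ?_⟩
    have h1 : (Abelianization.of (y ^ 2 ^ j) : Abelianization P) = Abelianization.of 1 := by
      rw [hj]
    rw [map_pow, map_one] at h1
    exact h1
  have hodd_one : ∀ (a : Abelianization P) (k : ℕ), Odd k → a ^ k = 1 → a = 1 := by
    intro a k hk hak
    obtain ⟨j, hj⟩ := hA2 a
    have hd1 := orderOf_dvd_of_pow_eq_one hak
    have hd2 := orderOf_dvd_of_pow_eq_one hj
    have hcop : Nat.Coprime k (2 ^ j) :=
      Nat.Coprime.pow_right j (Nat.Coprime.symm (Nat.coprime_two_left.mpr hk))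
    exact orderOf_eq_one_iff.mp (Nat.eq_one_of_dvd_coprimes hcop hd1 hd2)
  have hVcomm : ∀ c ∈ commutator L, V c = 1 := fun c hc =>
    Abelianization.commutator_subset_ker V hc
  have hVN : ∀ n ∈ N, V n = 1 := by
    intro n hn
    obtain ⟨k, hk, hnk⟩ := hNodd n hn
    have h1 : V (n ^ k) = 1 := hVcomm _ (Subgroup.commutator_mono le_top le_top hnk)
    rw [map_pow] at h1
    exact hodd_one _ k hk h1
  have hVP' : ∀ c ∈ ⁅P, P⁆, V c = 1 := fun c hc =>
    hVcomm c (Subgroup.commutator_mono le_top le_top hc)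
  have hVsq : V (x ^ 2) = 1 := by
    have hle : (P ⊓ N) ⊔ ⁅P, P⁆ ≤ V.ker :=
      sup_le (fun y hy => hVN y hy.2) (fun y hy => hVP' y hy)
    exact hle (hP x hx)
  obtain ⟨q, hqP, hqN, hVx⟩ := transfer_eq_pow_mul N P hsup x hx
  rw [← hϕ, ← hV] at hVx
  have hq2 : ϕ ⟨q, hqP⟩ ^ 2 = 1 := by
    rw [← map_pow, hker]
    exact hQ q ⟨hqP, hqN⟩
  rw [map_pow, hVx, mul_pow, hq2, one_mul, ← pow_mul, mul_comm, pow_mul] at hVsq
  have h5 : ϕ ⟨x, hx⟩ ^ 2 = 1 := hodd_one _ _ hidx hVsq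
  rw [← map_pow, hker] at h5
  exact h5

/-- the group-level version inside an ambient group `G`, for a Sylow `2`-subgroup -/
theorem sq_mem_commutator_sylow {G : Type*} [Group G] [Finite G] (N : Subgroup G) [hN : N.Normal]
    (P : Sylow 2 G)
    (hP : ∀ x ∈ (P : Subgroup G), x ^ 2 ∈ ((P : Subgroup G) ⊓ N) ⊔ ⁅(P : Subgroup G), (P : Subgroup G)⁆)
    (hQ : ∀ x ∈ (P : Subgroup G) ⊓ N, x ^ 2 ∈ ⁅(P : Subgroup G) ⊓ N, (P : Subgroup G) ⊓ N⁆)
    (hodd : Odd (Nat.card (Abelianization N))) :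
    ∀ x ∈ (P : Subgroup G), x ^ 2 ∈ ⁅(P : Subgroup G), (P : Subgroup G)⁆ := by
  classical
  have : Fact (Nat.Prime 2) := ⟨Nat.prime_two⟩
  obtain ⟨L, hL⟩ : ∃ L : Subgroup G, L = N ⊔ (P : Subgroup G) := ⟨_, rfl⟩
  have hNL : N ≤ L := hL ▸ le_sup_left
  have hPL : (P : Subgroup G) ≤ L := hL ▸ le_sup_right
  have hmapP : ((P : Subgroup G).subgroupOf L).map L.subtype = (P : Subgroup G) := by
    rw [Subgroup.subgroupOf_map_subtype, inf_of_le_left hPL]
  have hmapN : (N.subgroupOf L).map L.subtype = N := by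
    rw [Subgroup.subgroupOf_map_subtype, inf_of_le_left hNL]
  have hmapc : (⁅(P : Subgroup G).subgroupOf L, (P : Subgroup G).subgroupOf L⁆).map L.subtype
      = ⁅(P : Subgroup G), (P : Subgroup G)⁆ := by
    rw [Subgroup.map_commutator, hmapP]
  have hmapcN : (⁅N.subgroupOf L, N.subgroupOf L⁆).map L.subtype = ⁅N, N⁆ := by
    rw [Subgroup.map_commutator, hmapN]
  have hback : ∀ (K : Subgroup L) (y : L), (y : G) ∈ K.map L.subtype → y ∈ K := by
    intro K y hy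
    obtain ⟨z, hz, hzy⟩ := hy
    have : z = y := Subtype.ext hzy
    rwa [← this]
  have hmain := sq_mem_commutator_of_transfer (N.subgroupOf L) ((P : Subgroup G).subgroupOf L)
    (by
      rw [← Subgroup.subgroupOf_sup hNL hPL, ← hL]
      exact Subgroup.subgroupOf_self (H := L))
    (P.isPGroup'.comap_subtype)
    (by
      have h1 : ((P : Subgroup G).subgroupOf L).index * L.index = (P : Subgroup G).index :=
        Subgroup.relIndex_mul_index hPL
      have h2 : ¬ 2 ∣ (P : Subgroup G).index := P.not_dvd_index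
      rw [← Nat.not_even_iff_odd, even_iff_two_dvd]
      intro h3
      exact h2 (h1 ▸ Dvd.dvd.mul_right h3 _))
    (by
      intro x hx
      apply hback
      rw [Subgroup.map_sup, Subgroup.map_inf _ _ _ (Subgroup.subtype_injective L), hmapP, hmapN,
        hmapc]
      have := hP (x : G) (Subgroup.mem_subgroupOf.mp hx)
      simpa using this)
    (by
      intro x hx
      apply hback
      rw [hmapc]
      have hx' : (x : G) ∈ (P : Subgroup G) ⊓ N :=
        ⟨Subgroup.mem_subgroupOf.mp hx.1, Subgroup.mem_subgroupOf.mp hx.2⟩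
      have := Subgroup.commutator_mono inf_le_left inf_le_left (hQ (x : G) hx')
      simpa using this)
    (by
      intro n hn
      refine ⟨Nat.card (Abelianization N), hodd, ?_⟩
      apply hback
      rw [hmapcN]
      have hnN : (n : G) ∈ N := Subgroup.mem_subgroupOf.mp hn
      have h1 : (Abelianization.of (⟨(n : G), hnN⟩ : N) : Abelianization N)
          ^ Nat.card (Abelianization N) = 1 :=
        pow_card_eq_one'
      have h2 : (⟨(n : G), hnN⟩ : N) ^ Nat.card (Abelianization N) ∈ commutator N := by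
        rw [← Abelianization.ker_of, MonoidHom.mem_ker, map_pow]
        exact h1
      have h3 := Subgroup.mem_map_of_mem N.subtype h2
      rw [Subgroup.map_subtype_commutator] at h3
      simpa using h3)
  intro x hx
  have hxL : x ∈ L := hPL hx
  have h1 := hmain ⟨x, hxL⟩ (Subgroup.mem_subgroupOf.mpr hx)
  have h2 := Subgroup.mem_map_of_mem L.subtype h1
  rw [hmapc] at h2
  simpa using h2

end Cfsg.Agent.Lib.Helper25
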