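import Mathlib
import Cfsg.Agent.Lib.Helper3.SpSqDL
import Cfsg.Agent.S4623

set_option autoImplicit false

namespace Cfsg.Agent.Lib.Helper25

open Cfsg.Agent.Lib.Helper3

open scoped commutatorElement
open scoped Pointwise

universe u v

/-- squares in a Sylow 2-subgroup of a group containing a monomial copy of `D wr S_n` of full
2-part lie in the commutator subgroup, when this holds for a 2-subgroup `S` of `D` of the right
order -/
theorem perm_wreath_sq_b {D : Type u} {X : Type v} [Group D] [Group X] [Finite X] (n : ℕ)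
    (ι : (Fin n → D) →* X) (π : Equiv.Perm (Fin n) →* X)
    (hstar : ∀ (σ : Equiv.Perm (Fin n)) (g : Fin n → D),
      π σ * ι g = ι (fun i => g (σ⁻¹ i)) * π σ)
    (hinj : Function.Injective (fun p : (Fin n → D) × Equiv.Perm (Fin n) => ι p.1 * π p.2))
    (S : Subgroup D) [Finite S] (hS : IsPGroup 2 S) (hsq : ∀ u : S, u ^ 2 ∈ commutator S)
    (hcard : (Nat.card X).factorization 2
      = n * (Nat.card S).factorization 2 + (n.factorial).factorization 2)
    (P : Sylow 2 X) : ∀ x : (P : Subgroup X), x ^ 2 ∈ commutator (P : Subgroup X) := by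
  classical
  obtain ⟨S₀, hS₀⟩ : ∃ S₀ : MonSys (Fin n) D X, S₀ = ⟨ι, π, hstar, hinj⟩ := ⟨_, rfl⟩
  obtain ⟨T0⟩ : Nonempty (Sylow 2 (Equiv.Perm (Fin n))) := inferInstance
  obtain ⟨A0⟩ : Nonempty (Sylow 2 (alternatingGroup (Fin n))) := inferInstance
  have hperm := (Cfsg.Agent.S4623.result 2 n T0 A0).1
  have hQ := (sq_level S).mp hsq
  have hT := (sq_level (T0 : Subgroup (Equiv.Perm (Fin n)))).mp hperm
  have hEB := S₀.sub_sq_mem S (T0 : Subgroup (Equiv.Perm (Fin n))) hQ hT
  have hcB : Nat.card (S₀.sub S (T0 : Subgroup (Equiv.Perm (Fin n))))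
      = Nat.card S ^ n * Nat.card (T0 : Subgroup (Equiv.Perm (Fin n))) := by
    rw [MonSys.card_sub, Nat.card_fin]
  obtain ⟨k, hk⟩ := IsPGroup.iff_card.mp hS
  have hcT : Nat.card (T0 : Subgroup (Equiv.Perm (Fin n)))
      = 2 ^ (Nat.card (Equiv.Perm (Fin n))).factorization 2 := T0.card_eq_multiplicity
  have hk2 : (Nat.card S).factorization 2 = k := by
    rw [hk, Nat.factorization_pow, Finsupp.smul_apply, Nat.prime_two.factorization_self,
      smul_eq_mul, mul_one]
  have hperm_card : (Nat.card (Equiv.Perm (Fin n))).factorization 2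
      = (n.factorial).factorization 2 := by
    rw [Nat.card_perm, Nat.card_fin]
  have hcB' : Nat.card (S₀.sub S (T0 : Subgroup (Equiv.Perm (Fin n))))
      = 2 ^ (Nat.card X).factorization 2 := by
    rw [hcB, hk, hcT, hcard, hk2, hperm_card, ← pow_mul, ← pow_add]
    congr 1
    ring
  have hBp : IsPGroup 2 (S₀.sub S (T0 : Subgroup (Equiv.Perm (Fin n)))) := IsPGroup.of_card hcB'
  obtain ⟨S', hS'⟩ := hBp.exists_le_sylow
  have hBS : S₀.sub S (T0 : Subgroup (Equiv.Perm (Fin n))) = (S' : Subgroup X) :=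
    Subgroup.eq_of_le_of_card_ge hS' (by rw [S'.card_eq_multiplicity, hcB'])
  rw [hBS] at hEB
  obtain ⟨c, hc⟩ := MulAction.exists_smul_eq X S' P
  rw [sq_level]
  intro x hx
  rw [← hc, Sylow.coe_subgroup_smul] at hx ⊢
  have hmap : MulAut.conj c • (S' : Subgroup X)
      = (S' : Subgroup X).map (MulAut.conj c).toMonoidHom := rfl
  rw [hmap] at hx ⊢
  obtain ⟨y, hy, rfl⟩ := hx
  rw [← Subgroup.map_commutator, ← map_pow]
  exact Subgroup.mem_map_of_mem _ (hEB y hy)

end Cfsg.Agent.Lib.Helper25
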